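import Mathlib

set_option autoImplicit false

/-! Fixed points of pronormal subgroups: basic set-up (orbits, closure). -/

namespace Cfsg.Agent.PronFix
open Finset Classical

universe u

/-- pronormality, in the form used here -/
def Pro {G : Type u} [Group G] (K : Subgroup G) : Prop :=
  ∀ (g : G) (L : Subgroup G), K ≤ L → (∀ k ∈ K, g⁻¹ * k * g ∈ L) →
    ∃ h ∈ L, ∀ k, k ∈ K ↔ (g * h⁻¹) * k * (g * h⁻¹)⁻¹ ∈ K

/-- fixed points -/
noncomputable def Fx {G : Type u} [Group G] (K : Subgroup G) (Ω : Type u) [Fintype Ω]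
    [MulAction G Ω] : Finset Ω := univ.filter (fun x => ∀ k ∈ K, k • x = x)

/-- the conclusion proved by induction -/
def Concl {G : Type u} [Group G] (K : Subgroup G) (Ω : Type u) [Fintype Ω] [MulAction G Ω] :
    Prop :=
  2 * (Fx K Ω).card + 1 ≤ Fintype.card Ω ∧ (2 * (Fx K Ω).card + 1 = Fintype.card Ω →
    ∀ a b c d : Ω, a ≠ b → c ≠ d → ∃ g : G, g • a = c ∧ g • b = d)

/-- the induction hypothesis below degree `n` -/
def IH (n : ℕ) : Prop :=
  ∀ (G Ω : Type u) [Group G] [Finite G] [Fintype Ω] [MulAction G Ω], Fintype.card Ω < n →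
    (∀ x y : Ω, ∃ g : G, g • x = y) → ∀ K : Subgroup G, Pro K →
    (∃ k ∈ K, ∃ x : Ω, k • x ≠ x) → Concl K Ω

section
variable {G : Type u} [Group G] {K : Subgroup G} {Ω : Type u} [Fintype Ω] [MulAction G Ω]

lemma mem_Fx {x : Ω} : x ∈ Fx K Ω ↔ ∀ k ∈ K, k • x = x := by simp [Fx]

lemma Pro.subgroupOf (hK : Pro K) (H : Subgroup G) (hKH : K ≤ H) : Pro (K.subgroupOf H) := by
  intro g L hL hg
  obtain ⟨h, hh, hn⟩ := hK (g : G) (L.map H.subtype) (by
    intro k hk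
    exact ⟨⟨k, hKH hk⟩, hL (by simpa [Subgroup.mem_subgroupOf] using hk), rfl⟩) (by
    intro k hk
    refine ⟨g⁻¹ * ⟨k, hKH hk⟩ * g, hg _ (by simpa [Subgroup.mem_subgroupOf] using hk), ?_⟩
    simp)
  obtain ⟨h', hh', rfl⟩ := hh
  refine ⟨h', hh', fun k => ?_⟩
  simpa [Subgroup.mem_subgroupOf] using hn (k : G)

lemma Pro.act (hK : Pro K) (g : G) (L : Subgroup G) (h1 : K ≤ L)
    (h2 : ∀ k ∈ K, g⁻¹ * k * g ∈ L) :
    ∃ h ∈ L, ∀ x : Ω, g • x ∈ Fx K Ω ↔ h • x ∈ Fx K Ω := by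
  obtain ⟨h, hh, hn⟩ := hK g L h1 h2
  refine ⟨h, hh, fun x => ?_⟩
  have e : g • x = (g * h⁻¹) • h • x := by simp [mul_smul]
  set m := g * h⁻¹
  rw [e, mem_Fx, mem_Fx]
  constructor
  · intro H k hk
    have := H _ ((hn k).1 hk)
    rw [mul_smul, mul_smul, inv_smul_smul] at this
    exact (smul_left_cancel_iff m).1 this
  · intro H k hk
    have hk' : m⁻¹ * k * m ∈ K := (hn _).2 (by simpa [mul_assoc] using hk)
    have := H _ hk'
    rw [mul_smul, mul_smul, inv_smul_eq_iff] at this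
    exact this

/-- pointwise stabiliser of a finset -/
def PS (G : Type u) [Group G] {Ω : Type u} [MulAction G Ω] (W : Finset Ω) : Subgroup G where
  carrier := {g | ∀ w ∈ W, g • w = w}
  mul_mem' := by
    intro a b ha hb w hw
    rw [mul_smul, hb w hw, ha w hw]
  one_mem' := by intro w _; simp
  inv_mem' := by
    intro a ha w hw
    rw [inv_smul_eq_iff, ha w hw]

omit [Fintype Ω] in
lemma mem_PS {W : Finset Ω} {g : G} : g ∈ PS G W ↔ ∀ w ∈ W, g • w = w := Iff.rfl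

lemma le_PS {W : Finset Ω} (hW : W ⊆ Fx K Ω) : K ≤ PS G W :=
  fun k hk w hw => mem_Fx.1 (hW hw) k hk

lemma Pro.fix (hK : Pro K) (g : G) (W : Finset Ω) (hW : W ⊆ Fx K Ω)
    (hg : ∀ w ∈ W, g • w ∈ Fx K Ω) :
    ∃ h ∈ PS G W, ∀ x : Ω, g • x ∈ Fx K Ω ↔ h • x ∈ Fx K Ω := by
  refine hK.act g _ (le_PS hW) ?_
  intro k hk w hw
  rw [mul_smul, mul_smul, mem_Fx.1 (hg w hw) k hk, inv_smul_smul]

/-- orbit of a subgroup as a finset -/
noncomputable def Orb (H : Subgroup G) (x : Ω) : Finset Ω :=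
  univ.filter (fun y => ∃ h ∈ H, h • x = y)

lemma mem_Orb {H : Subgroup G} {x y : Ω} : y ∈ Orb H x ↔ ∃ h ∈ H, h • x = y := by simp [Orb]

lemma self_mem_Orb (H : Subgroup G) (x : Ω) : x ∈ Orb H x := mem_Orb.2 ⟨1, H.one_mem, by simp⟩

lemma smul_mem_Orb {H : Subgroup G} {x y : Ω} {h : G} (hh : h ∈ H) (hy : y ∈ Orb H x) :
    h • y ∈ Orb H x := by
  obtain ⟨a, ha, rfl⟩ := mem_Orb.1 hy
  exact mem_Orb.2 ⟨h * a, H.mul_mem hh ha, mul_smul _ _ _⟩

lemma smul_mem_Orb_iff {H : Subgroup G} {x y : Ω} {h : G} (hh : h ∈ H) :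
    h • y ∈ Orb H x ↔ y ∈ Orb H x :=
  ⟨fun hy => by simpa using smul_mem_Orb (H.inv_mem hh) hy, smul_mem_Orb hh⟩

lemma Orb_eq {H : Subgroup G} {x y : Ω} (hy : y ∈ Orb H x) : Orb H y = Orb H x := by
  obtain ⟨a, ha, rfl⟩ := mem_Orb.1 hy
  ext z
  simp only [mem_Orb]
  constructor
  · rintro ⟨b, hb, rfl⟩
    exact ⟨b * a, H.mul_mem hb ha, mul_smul _ _ _⟩
  · rintro ⟨b, hb, rfl⟩
    exact ⟨b * a⁻¹, H.mul_mem hb (H.inv_mem ha), by simp [mul_smul]⟩

lemma Orb_disjoint {H : Subgroup G} {x y : Ω} (hy : y ∉ Orb H x) :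
    Disjoint (Orb H x) (Orb H y) := by
  rw [Finset.disjoint_left]
  intro z h1 h2
  apply hy
  rw [← Orb_eq h1, Orb_eq h2]
  exact self_mem_Orb H y

/-- a nontrivial `K`-orbit lies in no translate of the fixed set -/
lemma Pro.not_in_block (hK : Pro K) (ρ : Ω) (hρ : ρ ∉ Fx K Ω) (g : G) :
    ¬ ∀ y ∈ Orb K ρ, g • y ∈ Fx K Ω := by
  intro H
  let L : Subgroup G :=
    { carrier := {a | ∀ y, a • y ∈ Orb K ρ ↔ y ∈ Orb K ρ}
      mul_mem' := by
        intro a b ha hb y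
        rw [mul_smul, ha, hb]
      one_mem' := by intro y; simp
      inv_mem' := by
        intro a ha y
        rw [← ha, smul_inv_smul] }
  have hfix : ∀ a : G, (∀ y ∈ Orb K ρ, a • y = y) → a ∈ L := by
    intro a ha y
    constructor
    · intro hy
      have := ha _ hy
      rw [smul_left_cancel_iff] at this
      rwa [this] at hy
    · intro hy
      rwa [ha y hy]
  obtain ⟨h, hh, hn⟩ := hK.act (Ω := Ω) g L (fun k hk y => smul_mem_Orb_iff hk) (by
    intro k hk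
    apply hfix
    intro y hy
    rw [mul_smul, mul_smul, mem_Fx.1 (H y hy) k hk, inv_smul_smul])
  have h1 : h⁻¹ • ρ ∈ Orb K ρ := (L.inv_mem hh ρ).2 (self_mem_Orb K ρ)
  have := (hn _).1 (H _ h1)
  rw [smul_inv_smul] at this
  exact hρ this

variable [Finite G]

lemma IH.orb {n : ℕ} (ih : IH.{u} n) (hK : Pro K) (H : Subgroup G) (hKH : K ≤ H) (x : Ω)
    (hlt : (Orb H x).card < n) (hx : ∃ y ∈ Orb H x, y ∉ Fx K Ω) :
    2 * (Orb H x ∩ Fx K Ω).card + 1 ≤ (Orb H x).card ∧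
      (2 * (Orb H x ∩ Fx K Ω).card + 1 = (Orb H x).card →
        ∀ a ∈ Orb H x, ∀ b ∈ Orb H x, ∀ c ∈ Orb H x, ∀ d ∈ Orb H x, a ≠ b → c ≠ d →
          ∃ h ∈ H, h • a = c ∧ h • b = d) := by
  let O := {y : Ω // y ∈ Orb H x}
  letI : MulAction H O :=
    { smul := fun h y => ⟨(h : G) • y.1, smul_mem_Orb h.2 y.2⟩
      one_smul := fun y => Subtype.ext (one_smul G y.1)
      mul_smul := fun a b y => Subtype.ext (mul_smul (a : G) (b : G) y.1) }
  have hs : ∀ (h : H) (y : O), (h • y).1 = (h : G) • y.1 := fun _ _ => rfl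
  have hc : Fintype.card O = (Orb H x).card := by simp [O]
  have hF : (Fx (K.subgroupOf H) O).card = (Orb H x ∩ Fx K Ω).card := by
    apply Finset.card_bij (fun y _ => y.1)
    · intro y hy
      rw [Finset.mem_inter, mem_Fx]
      refine ⟨y.2, fun k hk => ?_⟩
      have := mem_Fx.1 hy ⟨k, hKH hk⟩ (by simpa [Subgroup.mem_subgroupOf] using hk)
      exact congrArg Subtype.val this
    · intro a _ b _ h
      exact Subtype.ext h
    · intro y hy
      rw [Finset.mem_inter, mem_Fx] at hy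
      refine ⟨⟨y, hy.1⟩, mem_Fx.2 fun k hk => Subtype.ext ?_, rfl⟩
      exact hy.2 k (by simpa [Subgroup.mem_subgroupOf] using hk)
  have := ih H O (hc ▸ hlt) (by
    intro a b
    obtain ⟨p, hp, e1⟩ := mem_Orb.1 a.2
    obtain ⟨q, hq, e2⟩ := mem_Orb.1 b.2
    refine ⟨⟨q * p⁻¹, H.mul_mem hq (H.inv_mem hp)⟩, Subtype.ext ?_⟩
    rw [hs, ← e1, ← e2]
    simp [mul_smul]) (K.subgroupOf H) (hK.subgroupOf H hKH) (by
    obtain ⟨y, hy, hy'⟩ := hx
    rw [mem_Fx] at hy'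
    push Not at hy'
    obtain ⟨k, hk, hne⟩ := hy'
    refine ⟨⟨k, hKH hk⟩, by simpa [Subgroup.mem_subgroupOf] using hk, ⟨y, hy⟩, fun h => hne ?_⟩
    exact congrArg Subtype.val h)
  rw [Concl, hF, hc] at this
  refine ⟨this.1, fun he a ha b hb c hc' d hd hab hcd => ?_⟩
  obtain ⟨h, h1, h2⟩ := this.2 he ⟨a, ha⟩ ⟨b, hb⟩ ⟨c, hc'⟩ ⟨d, hd⟩
    (fun h => hab (congrArg Subtype.val h)) (fun h => hcd (congrArg Subtype.val h))
  exact ⟨h, h.2, congrArg Subtype.val h1, congrArg Subtype.val h2⟩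

lemma IH.inv {n : ℕ} (ih : IH.{u} n) (hK : Pro K) (H : Subgroup G) (hKH : K ≤ H) :
    ∀ (m : ℕ) (R : Finset Ω), R.card = m → m < n → (∀ h ∈ H, ∀ y ∈ R, h • y ∈ R) →
      (∀ y ∈ R, ∃ z ∈ Orb H y, z ∉ Fx K Ω) →
      2 * (R ∩ Fx K Ω).card ≤ R.card ∧ (R.Nonempty → 2 * (R ∩ Fx K Ω).card + 1 ≤ R.card) := by
  intro m
  induction m using Nat.strong_induction_on with
  | _ m IHm =>
    intro R hR hm hinv hout
    rcases R.eq_empty_or_nonempty with rfl | ⟨x, hx⟩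
    · simp
    have hsub : Orb H x ⊆ R := by
      intro y hy
      obtain ⟨h, hh, rfl⟩ := mem_Orb.1 hy
      exact hinv h hh x hx
    have hle := Finset.card_le_card hsub
    have h1 := (ih.orb hK H hKH x (by omega) (hout x hx)).1
    have hpos : 0 < (Orb H x).card := Finset.card_pos.2 ⟨x, self_mem_Orb H x⟩
    have hc := Finset.card_sdiff_of_subset hsub
    have h2 := (IHm (R \ Orb H x).card (by omega) (R \ Orb H x) rfl (by omega) (by
      intro h hh y hy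
      rw [Finset.mem_sdiff] at hy ⊢
      exact ⟨hinv h hh y hy.1, fun h' => hy.2 ((smul_mem_Orb_iff hh).1 h')⟩)
      (fun y hy => hout y (Finset.mem_sdiff.1 hy).1)).1
    have h3 : (R ∩ Fx K Ω).card ≤ (Orb H x ∩ Fx K Ω).card + ((R \ Orb H x) ∩ Fx K Ω).card := by
      refine le_trans (Finset.card_le_card ?_) (Finset.card_union_le _ _)
      intro y hy
      simp only [Finset.mem_union, Finset.mem_inter, Finset.mem_sdiff] at hy ⊢
      tauto
    constructor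
    · omega
    · intro _; omega

end

end Cfsg.Agent.PronFix
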