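import Mathlib
import Cfsg.Agent.PronFix.Basic

set_option autoImplicit false

/-! Multiple transitivity and the closure operator. -/

namespace Cfsg.Agent.PronFix
open Finset Classical

universe u

/-- `k`-fold transitivity, stabiliser form -/
def Tr (G : Type u) [Group G] (Ω : Type u) [MulAction G Ω] (k : ℕ) : Prop :=
  ∀ W : Finset Ω, W.card < k → ∀ x, x ∉ W → ∀ y, y ∉ W → ∃ g ∈ PS G W, g • x = y

section
variable {G : Type u} [Group G] {K : Subgroup G} {Ω : Type u} [MulAction G Ω]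

lemma Tr.mono {k j : ℕ} (h : Tr G Ω k) (hj : j ≤ k) : Tr G Ω j :=
  fun W hW => h W (by omega)

lemma Tr.ext {k : ℕ} (h : Tr G Ω k) (φ : Ω → Ω) (W : Finset Ω) (hW : W.card ≤ k)
    (hφ : Set.InjOn φ W) : ∃ g : G, ∀ w ∈ W, g • w = φ w := by
  induction W using Finset.induction_on with
  | empty => exact ⟨1, by simp⟩
  | insert x W hx IHW =>
    rw [Finset.card_insert_of_notMem hx] at hW
    obtain ⟨g, hg⟩ := IHW (by omega) (hφ.mono (by simp))
    have hc : (W.image φ).card < k := lt_of_le_of_lt Finset.card_image_le (by omega)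
    obtain ⟨a, ha, e⟩ := h (W.image φ) hc (g • x) (by
      intro hm
      obtain ⟨w, hw, e⟩ := Finset.mem_image.1 hm
      rw [← hg w hw, smul_left_cancel_iff] at e
      exact hx (e ▸ hw)) (φ x) (by
      intro hm
      obtain ⟨w, hw, e⟩ := Finset.mem_image.1 hm
      have := hφ (by simp [hw]) (by simp) e
      exact hx (this ▸ hw))
    refine ⟨a * g, fun w hw => ?_⟩
    rcases Finset.mem_insert.1 hw with rfl | hw
    · rw [mul_smul, e]
    · rw [mul_smul, hg w hw, ha _ (Finset.mem_image_of_mem φ hw)]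

lemma Tr.map {k : ℕ} (h : Tr G Ω k) (W V : Finset Ω) (hW : W.card ≤ k) (hV : W.card ≤ V.card) :
    ∃ g : G, ∀ w ∈ W, g • w ∈ V := by
  obtain ⟨e⟩ : Nonempty (W ↪ V) := Function.Embedding.nonempty_of_card_le (by simpa using hV)
  obtain ⟨g, hg⟩ := h.ext (fun x => if hx : x ∈ W then (e ⟨x, hx⟩ : Ω) else x) W hW (by
    intro a ha b hb hab
    have ha' : a ∈ W := ha
    have hb' : b ∈ W := hb
    simp only [ha', hb', dif_pos] at hab
    have := e.injective (Subtype.ext hab)
    exact congrArg Subtype.val this)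
  refine ⟨g, fun w hw => ?_⟩
  rw [hg w hw]
  simp only [hw, dif_pos]
  exact (e ⟨w, hw⟩).2

lemma iff_of_map (g : G) (W V : Finset Ω) (hV : V.card ≤ W.card) (hg : ∀ w ∈ W, g • w ∈ V) :
    ∀ x, x ∈ W ↔ g • x ∈ V := by
  have h1 : W.image (g • ·) = V := by
    apply Finset.eq_of_subset_of_card_le
    · intro y hy
      obtain ⟨w, hw, rfl⟩ := Finset.mem_image.1 hy
      exact hg w hw
    · rwa [Finset.card_image_of_injective _ (MulAction.injective g)]
  intro x
  refine ⟨hg x, fun hx => ?_⟩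
  rw [← h1] at hx
  obtain ⟨w, hw, e⟩ := Finset.mem_image.1 hx
  rwa [← (smul_left_cancel_iff g).1 e]

lemma Tr.map_eq {k : ℕ} (h : Tr G Ω k) (W V : Finset Ω) (hW : W.card ≤ k)
    (hV : W.card = V.card) : ∃ g : G, ∀ x, x ∈ W ↔ g • x ∈ V := by
  obtain ⟨g, hg⟩ := h.map W V hW hV.le
  exact ⟨g, iff_of_map g W V hV.ge hg⟩

lemma Tr.succ {k : ℕ} (h : Tr G Ω k) (V : Finset Ω) (hV : V.card = k)
    (htr : ∀ x, x ∉ V → ∀ y, y ∉ V → ∃ g ∈ PS G V, g • x = y) : Tr G Ω (k + 1) := by
  intro W hW x hx y hy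
  rcases Nat.lt_or_ge W.card k with hlt | hge
  · exact h W hlt x hx y hy
  obtain ⟨g, hg⟩ := h.map_eq W V (by omega) (by omega)
  obtain ⟨a, ha, e⟩ := htr (g • x) (fun h' => hx ((hg x).2 h')) (g • y)
    (fun h' => hy ((hg y).2 h'))
  refine ⟨g⁻¹ * a * g, fun w hw => ?_, ?_⟩
  · rw [mul_smul, mul_smul, ha _ ((hg w).1 hw), inv_smul_smul]
  · rw [mul_smul, mul_smul, e, inv_smul_smul]

variable [Fintype Ω]

/-- closure: intersection of the translates of the fixed set containing `W` -/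
noncomputable def cl (K : Subgroup G) (W : Finset Ω) : Finset Ω :=
  univ.filter fun x => ∀ g : G, (∀ w ∈ W, g • w ∈ Fx K Ω) → g • x ∈ Fx K Ω

lemma mem_cl {W : Finset Ω} {x : Ω} :
    x ∈ cl K W ↔ ∀ g : G, (∀ w ∈ W, g • w ∈ Fx K Ω) → g • x ∈ Fx K Ω := by simp [cl]

lemma subset_cl (W : Finset Ω) : W ⊆ cl K W := fun x hx => mem_cl.2 fun _ h => h x hx

lemma cl_subset {W : Finset Ω} (hW : W ⊆ Fx K Ω) : cl K W ⊆ Fx K Ω := by
  intro x hx
  simpa using mem_cl.1 hx 1 (fun w hw => by simpa using hW hw)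

lemma cl_mono {W V : Finset Ω} (h : V ⊆ cl K W) : cl K V ⊆ cl K W := by
  intro x hx
  rw [mem_cl] at hx ⊢
  intro g hg
  exact hx g fun v hv => mem_cl.1 (h hv) g hg

lemma cl_smul {W V : Finset Ω} {g : G} (hg : ∀ x, x ∈ W ↔ g • x ∈ V) (x : Ω) :
    x ∈ cl K W ↔ g • x ∈ cl K V := by
  rw [mem_cl, mem_cl]
  constructor
  · intro H a ha
    rw [← mul_smul]
    exact H _ fun w hw => by rw [mul_smul]; exact ha _ ((hg w).1 hw)
  · intro H a ha
    have := H (a * g⁻¹) fun v hv => by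
      rw [mul_smul]
      exact ha _ ((hg _).2 (by simpa using hv))
    simpa [mul_smul] using this

omit [Fintype Ω] in
lemma card_eq_of_iff {W V : Finset Ω} {g : G} (hg : ∀ x, x ∈ W ↔ g • x ∈ V) :
    W.card = V.card := by
  apply Finset.card_bij (fun x _ => g • x)
  · intro x hx; exact (hg x).1 hx
  · intro a _ b _ h; exact (smul_left_cancel_iff g).1 h
  · intro y hy
    exact ⟨g⁻¹ • y, (hg _).2 (by simpa using hy), by simp⟩

lemma Tr.card_cl {k : ℕ} (h : Tr G Ω k) {W V : Finset Ω} (hW : W.card = k) (hV : V.card = k) :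
    (cl K W).card = (cl K V).card := by
  obtain ⟨g, hg⟩ := h.map_eq W V hW.le (by omega)
  exact card_eq_of_iff (cl_smul hg)

lemma Tr.cl_eq {k : ℕ} (h : Tr G Ω k) {W V : Finset Ω} (hW : W.card = k) (hV : V.card = k)
    (hs : V ⊆ cl K W) : cl K V = cl K W :=
  Finset.eq_of_subset_of_card_le (cl_mono hs) (h.card_cl hW hV).le

lemma Pro.orb_out (hK : Pro K) {W : Finset Ω} (hW : W ⊆ Fx K Ω) {x : Ω} (hx : x ∉ cl K W) :
    ∃ z ∈ Orb (PS G W) x, z ∉ Fx K Ω := by
  rw [mem_cl] at hx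
  push Not at hx
  obtain ⟨g, hg, hx⟩ := hx
  obtain ⟨h, hh, e⟩ := hK.fix g W hW hg
  exact ⟨h • x, mem_Orb.2 ⟨h, hh, rfl⟩, fun h' => hx ((e x).2 h')⟩

/-- the clique bound in the Steiner system of closures of `k`-sets -/
lemma Tr.clique {k e : ℕ} (h : Tr G Ω k) (hk : 2 ≤ k)
    (he : ∀ W : Finset Ω, W.card = k → (cl K W).card = k + e)
    (Z T : Finset Ω) (ρ : Ω) (hρ : ρ ∉ Z) (hZ : Z ⊆ T) (hρT : ρ ∈ T)
    (I : Finset Ω) (U : Ω → Finset Ω) (hU : ∀ i ∈ I, U i ⊆ Z)
    (hc : ∀ i ∈ I, (U i).card + 1 = k)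
    (hij : ∀ i ∈ I, ∀ j ∈ I, i ≠ j → (U i ∩ U j).card + 2 = k)
    (h1 : ∀ i ∈ I, ∀ y ∈ Z, y ∉ U i → ρ ∉ cl K (insert y (U i)))
    (hT : ∀ i ∈ I, cl K (insert ρ (U i)) ⊆ T) :
    e * I.card + Z.card + 1 ≤ T.card := by
  let E : Ω → Finset Ω := fun i => cl K (insert ρ (U i)) \ insert ρ (U i)
  have hcard : ∀ i ∈ I, (insert ρ (U i)).card = k := fun i hi => by
    rw [Finset.card_insert_of_notMem (fun h' => hρ (hU i hi h')), hc i hi]
  have hE : ∀ i ∈ I, (E i).card = e := fun i hi => by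
    simp only [E]
    rw [Finset.card_sdiff_of_subset (subset_cl _), he _ (hcard i hi), hcard i hi]
    omega
  have hout : ∀ i ∈ I, ∀ y ∈ Z, y ∉ U i → y ∉ cl K (insert ρ (U i)) := by
    intro i hi y hy hyU hm
    apply h1 i hi y hy hyU
    rw [h.cl_eq (hcard i hi) (V := insert y (U i))
      (by rw [Finset.card_insert_of_notMem hyU, hc i hi])
      (Finset.insert_subset hm ((Finset.subset_insert _ _).trans (subset_cl _)))]
    exact subset_cl _ (by simp)
  have hsub : I.biUnion E ⊆ T \ insert ρ Z := by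
    intro x hx
    obtain ⟨i, hi, hx⟩ := Finset.mem_biUnion.1 hx
    rw [Finset.mem_sdiff, Finset.mem_insert, not_or] at hx
    rw [Finset.mem_sdiff, Finset.mem_insert, not_or]
    exact ⟨hT i hi hx.1, hx.2.1, fun hz => hout i hi x hz hx.2.2 hx.1⟩
  have hdis : ∀ i ∈ I, ∀ j ∈ I, i ≠ j → Disjoint (E i) (E j) := by
    intro i hi j hj hne
    rw [Finset.disjoint_left]
    intro x hxi hxj
    simp only [E, Finset.mem_sdiff, Finset.mem_insert, not_or] at hxi hxj
    have hV : (insert x (insert ρ (U i ∩ U j))).card = k := by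
      rw [Finset.card_insert_of_notMem (by simp [hxi.2.1, hxi.2.2]),
        Finset.card_insert_of_notMem (fun h' => hρ (hU i hi (Finset.mem_inter.1 h').1))]
      exact hij i hi j hj hne
    have e1 := h.cl_eq (K := K) (hcard i hi) hV (Finset.insert_subset hxi.1
      ((Finset.insert_subset_insert _ Finset.inter_subset_left).trans (subset_cl _)))
    have e2 := h.cl_eq (K := K) (hcard j hj) hV (Finset.insert_subset hxj.1
      ((Finset.insert_subset_insert _ Finset.inter_subset_right).trans (subset_cl _)))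
    have : ¬ U j ⊆ U i := by
      intro hs
      have := hij i hi j hj hne
      rw [Finset.inter_eq_right.2 hs] at this
      have := hc j hj
      omega
    obtain ⟨y, hy, hy'⟩ := Finset.not_subset.1 this
    apply hout i hi y (hU j hj hy) hy'
    rw [← e1, e2]
    exact subset_cl _ (by simp [hy])
  have h2 := Finset.card_le_card hsub
  rw [Finset.card_biUnion hdis, Finset.sum_congr rfl hE, Finset.sum_const, smul_eq_mul,
    Finset.card_sdiff_of_subset (Finset.insert_subset hρT hZ),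
    Finset.card_insert_of_notMem hρ] at h2
  have h3 := Finset.card_le_card (Finset.insert_subset hρT hZ)
  rw [Finset.card_insert_of_notMem hρ] at h3
  rw [mul_comm]
  omega

/-- star-shaped clique -/
lemma Tr.star {k e : ℕ} (h : Tr G Ω k) (hk : 2 ≤ k)
    (he : ∀ W : Finset Ω, W.card = k → (cl K W).card = k + e)
    (Z T : Finset Ω) (ρ : Ω) (hρ : ρ ∉ Z) (hZ : Z ⊆ T) (hρT : ρ ∈ T)
    (A I : Finset Ω) (hA : A ⊆ Z) (hAc : A.card + 2 = k) (hI : I ⊆ Z) (hAI : Disjoint I A)
    (h1 : ∀ i ∈ I, ∀ y ∈ Z, y ∉ insert i A → ρ ∉ cl K (insert y (insert i A)))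
    (hT : ∀ i ∈ I, cl K (insert ρ (insert i A)) ⊆ T) :
    e * I.card + Z.card + 1 ≤ T.card := by
  refine h.clique hk he Z T ρ hρ hZ hρT I (fun i => insert i A)
    (fun i hi => Finset.insert_subset (hI hi) hA) (fun i hi => ?_) (fun i hi j hj hne => ?_) h1 hT
  · rw [Finset.card_insert_of_notMem (Finset.disjoint_left.1 hAI hi)]; omega
  · have : insert i A ∩ insert j A = A := by
      ext x
      simp only [Finset.mem_inter, Finset.mem_insert]
      constructor
      · rintro ⟨h1 | h1, h2 | h2⟩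
        · exact absurd (h1.symm.trans h2) hne
        · exact h2
        · exact h1
        · exact h1
      · intro hx; exact ⟨Or.inr hx, Or.inr hx⟩
    rw [this, hAc]

/-- simplex-shaped clique -/
lemma Tr.simplex {k e : ℕ} (h : Tr G Ω k) (hk : 2 ≤ k)
    (he : ∀ W : Finset Ω, W.card = k → (cl K W).card = k + e)
    (Z : Finset Ω) (ρ : Ω) (hρ : ρ ∉ Z) (hZ : k ≤ Z.card)
    (h1 : ∀ W ⊆ Z, W.card = k → cl K W ⊆ Z) :
    e * k + Z.card + 1 ≤ Fintype.card Ω := by
  obtain ⟨V, hV, hVc⟩ := Finset.exists_subset_card_eq hZ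
  have := h.clique hk he Z univ ρ hρ (Finset.subset_univ _) (Finset.mem_univ _) V
    (fun i => V.erase i) (fun i _ => (Finset.erase_subset _ _).trans hV)
    (fun i hi => by rw [Finset.card_erase_of_mem hi]; omega)
    (fun i hi j hj hne => by
      have : V.erase i ∩ V.erase j = (V.erase i).erase j := by
        ext x; simp only [Finset.mem_inter, Finset.mem_erase]; tauto
      rw [this, Finset.card_erase_of_mem (by simp [hj, hne.symm]), Finset.card_erase_of_mem hi]
      omega)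
    (fun i hi y hy hy' hm => hρ (h1 _ (Finset.insert_subset hy
      ((Finset.erase_subset _ _).trans hV)) (by
        rw [Finset.card_insert_of_notMem hy', Finset.card_erase_of_mem hi]; omega) hm))
    (fun _ _ => Finset.subset_univ _)
  rwa [hVc, Finset.card_univ] at this

end

end Cfsg.Agent.PronFix
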