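import Mathlib
import Cfsg.Agent.PronFix.Clos

set_option autoImplicit false

/-! The Steiner system case. -/

namespace Cfsg.Agent.PronFix
open Finset Classical

universe u

section
variable {G : Type u} [Group G] {K : Subgroup G} {Ω : Type u} [Fintype Ω] [MulAction G Ω]

lemma orbK_out {ρ y : Ω} (hρ : ρ ∉ Fx K Ω) (hy : y ∈ Orb K ρ) : y ∉ Fx K Ω := by
  intro h
  obtain ⟨k, hk, rfl⟩ := mem_Orb.1 hy
  have := mem_Fx.1 h k⁻¹ (K.inv_mem hk)
  rw [inv_smul_smul] at this
  exact hρ (this ▸ h)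

lemma orbK_le {ρ : Ω} (hρ : ρ ∉ Fx K Ω) :
    (Orb K ρ).card + (Fx K Ω).card ≤ Fintype.card Ω := by
  rw [← Finset.card_union_of_disjoint (Finset.disjoint_left.2 fun y hy => orbK_out hρ hy)]
  exact Finset.card_le_univ _

lemma Tr.orb_card {k : ℕ} (h : Tr G Ω k) (hK : Pro K)
    (hn : Fintype.card Ω ≤ 2 * (Fx K Ω).card) {ρ : Ω} (hρ : ρ ∉ Fx K Ω) :
    k + 1 ≤ (Orb K ρ).card := by
  by_contra hlt
  have := orbK_le hρ
  obtain ⟨g, hg⟩ := h.map (Orb K ρ) (Fx K Ω) (by omega) (by omega)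
  exact hK.not_in_block ρ hρ g hg

lemma fixz {k : ℕ} (he : ∀ W : Finset Ω, W.card = k → (cl K W).card = k + 1) (τ : G)
    {W : Finset Ω} (hW : W.card = k) (hτ : ∀ x ∈ W, τ • x ∈ W) {z : Ω} (hz : z ∈ cl K W)
    (hzW : z ∉ W) : τ • z = z := by
  have hi := iff_of_map τ W W le_rfl hτ
  have h1 : (cl K W \ W).card ≤ 1 := by
    rw [Finset.card_sdiff_of_subset (subset_cl _), he W hW]; omega
  exact Finset.card_le_one.1 h1 _
    (Finset.mem_sdiff.2 ⟨(cl_smul hi z).1 hz, fun h => hzW ((hi z).2 h)⟩) _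
    (Finset.mem_sdiff.2 ⟨hz, hzW⟩)

lemma starF {k e : ℕ} (h : Tr G Ω k) (hk : 2 ≤ k)
    (he : ∀ W : Finset Ω, W.card = k → (cl K W).card = k + e) (T : Finset Ω) (ρ : Ω)
    (hρ : ρ ∉ Fx K Ω) (hZ : Fx K Ω ⊆ T) (hρT : ρ ∈ T) (A : Finset Ω) (hA : A ⊆ Fx K Ω)
    (hAc : A.card + 2 = k)
    (hT : ∀ i ∈ Fx K Ω, i ∉ A → cl K (insert ρ (insert i A)) ⊆ T) :
    e * ((Fx K Ω).card - A.card) + (Fx K Ω).card + 1 ≤ T.card := by
  have := h.star hk he (Fx K Ω) T ρ hρ hZ hρT A (Fx K Ω \ A) hA hAc Finset.sdiff_subset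
    Finset.sdiff_disjoint (fun i hi y hy _ hm => hρ (cl_subset (Finset.insert_subset hy
      (Finset.insert_subset (Finset.mem_sdiff.1 hi).1 hA)) hm))
    (fun i hi => hT i (Finset.mem_sdiff.1 hi).1 (Finset.mem_sdiff.1 hi).2)
  rwa [Finset.card_sdiff_of_subset hA] at this

lemma semireg {k : ℕ} (h : Tr G Ω k) (hk : 2 ≤ k)
    (he : ∀ W : Finset Ω, W.card = k → (cl K W).card = k + 1)
    (hn : Fintype.card Ω = 2 * (Fx K Ω).card) (hf : k ≤ (Fx K Ω).card) {τ : G} (hτ : τ ∈ K)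
    {ρ : Ω} (hρ : ρ ∉ Fx K Ω) (hfix : τ • ρ = ρ) (x : Ω) : τ • x = x := by
  by_contra hx
  let Y : Finset Ω := univ.filter fun y => τ • y = y
  have hY : ∀ y, y ∈ Y ↔ τ • y = y := fun y => by simp [Y]
  have hFY : Fx K Ω ⊆ Y := fun y hy => (hY y).2 (mem_Fx.1 hy τ hτ)
  have hcl : ∀ W ⊆ Y, W.card = k → cl K W ⊆ Y := by
    intro W hW hWc z hz
    by_cases hzW : z ∈ W
    · exact hW hzW
    · exact (hY z).2 (fixz he τ hWc (fun y hy => by rwa [(hY y).1 (hW hy)]) hz hzW)
  have h1 := h.simplex hk he Y x (fun h' => hx ((hY x).1 h'))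
    (hf.trans (Finset.card_le_card hFY)) hcl
  obtain ⟨A, hA, hAc⟩ := Finset.exists_subset_card_eq (s := Fx K Ω) (n := k - 2) (by omega)
  have h2 := starF h hk he Y ρ hρ hFY ((hY ρ).2 hfix) A hA (by omega) (fun i hi hiA => hcl _
    (Finset.insert_subset ((hY ρ).2 hfix) (Finset.insert_subset (hFY hi) (hA.trans hFY))) (by
      rw [Finset.card_insert_of_notMem (fun h' => hρ (Finset.insert_subset hi hA h')),
        Finset.card_insert_of_notMem hiA]; omega))
  omega

lemma exists_invol {k : ℕ} (h : Tr G Ω k) (hk : 2 ≤ k) (hK : Pro K)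
    (he : ∀ W : Finset Ω, W.card = k → (cl K W).card = k + 1)
    (hn : Fintype.card Ω = 2 * (Fx K Ω).card) {ρ : Ω} (hρ : ρ ∉ Fx K Ω) :
    ∃ κ ∈ K, (∀ x : Ω, κ • κ • x = x) ∧ ∀ x : Ω, κ • x = x → x ∈ Fx K Ω := by
  have hg := h.orb_card hK hn.le hρ
  have hg' := orbK_le hρ
  obtain ⟨A, hA, hAc⟩ := Finset.exists_subset_card_eq (s := Fx K Ω) (n := k - 2) (by omega)
  have : ∃ i ∈ Fx K Ω, i ∉ A ∧ ∃ σ ∈ cl K (insert ρ (insert i A)), σ ∈ Orb K ρ ∧ σ ≠ ρ := by
    by_contra hno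
    push Not at hno
    have h2 := starF h hk he (univ \ (Orb K ρ).erase ρ) ρ hρ (by
      intro y hy
      rw [Finset.mem_sdiff, Finset.mem_erase]
      exact ⟨Finset.mem_univ _, fun h' => orbK_out hρ h'.2 hy⟩) (by simp) A hA (by omega) (by
      intro i hi hiA y hy
      rw [Finset.mem_sdiff, Finset.mem_erase]
      exact ⟨Finset.mem_univ _, fun h' => h'.1 (hno i hi hiA y hy h'.2)⟩)
    rw [Finset.card_sdiff_of_subset (Finset.subset_univ _), Finset.card_univ,
      Finset.card_erase_of_mem (self_mem_Orb K ρ)] at h2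
    omega
  obtain ⟨i, hi, hiA, σ, hσ, hσo, hne⟩ := this
  obtain ⟨κ, hκ, e⟩ := mem_Orb.1 hσo
  have hσF := orbK_out hρ hσo
  set B := insert i A
  have hB : B ⊆ Fx K Ω := Finset.insert_subset hi hA
  have hBc : B.card + 1 = k := by
    simp only [B]; rw [Finset.card_insert_of_notMem hiA]; omega
  have hW : (insert ρ B).card = k := by
    rw [Finset.card_insert_of_notMem (fun h' => hρ (hB h')), hBc]
  have hW' : (insert σ B).card = k := by
    rw [Finset.card_insert_of_notMem (fun h' => hσF (hB h')), hBc]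
  have hi' := iff_of_map κ (insert ρ B) (insert σ B) (by omega) (by
    intro w hw
    rcases Finset.mem_insert.1 hw with rfl | hw
    · simp [e]
    · rw [mem_Fx.1 (hB hw) κ hκ]; simp [hw])
  have h3 : κ • σ ∈ cl K (insert ρ B) := by
    rw [← h.cl_eq hW hW' (Finset.insert_subset hσ
      ((Finset.subset_insert _ _).trans (subset_cl _)))]
    exact (cl_smul hi' σ).1 hσ
  have h4 : κ • σ = ρ := by
    by_contra h5
    have hσW : σ ∉ insert ρ B := by
      rw [Finset.mem_insert, not_or]; exact ⟨hne, fun h' => hσF (hB h')⟩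
    have h6 : κ • σ ∉ insert ρ B := by
      rw [Finset.mem_insert, not_or]
      exact ⟨h5, fun h' => orbK_out hρ (smul_mem_Orb hκ hσo) (hB h')⟩
    have h1 : (cl K (insert ρ B) \ insert ρ B).card ≤ 1 := by
      rw [Finset.card_sdiff_of_subset (subset_cl _), he _ hW]; omega
    have := Finset.card_le_one.1 h1 _ (Finset.mem_sdiff.2 ⟨h3, h6⟩) _
      (Finset.mem_sdiff.2 ⟨hσ, hσW⟩)
    rw [← e, smul_left_cancel_iff, e] at this
    exact hne this
  refine ⟨κ, hκ, fun x => ?_, fun x hx => ?_⟩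
  · rw [← mul_smul]
    exact semireg h hk he hn (by omega) (K.mul_mem hκ hκ) hρ (by rw [mul_smul, e, h4]) x
  · by_contra hxF
    exact hne (e ▸ semireg h hk he hn (by omega) hκ hxF hx ρ)

lemma exists_inv_set (κ : G) (hκ : κ ∈ K) (h2 : ∀ x : Ω, κ • κ • x = x)
    (hf : ∀ x : Ω, κ • x = x → x ∈ Fx K Ω) (j : ℕ)
    (hj : 2 * j + (Fx K Ω).card ≤ Fintype.card Ω) :
    ∃ P : Finset Ω, P.card = 2 * j ∧ Disjoint P (Fx K Ω) ∧ ∀ x ∈ P, κ • x ∈ P := by
  induction j with
  | zero => exact ⟨∅, by simp, by simp, by simp⟩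
  | succ j IHj =>
    obtain ⟨P, hP, hd, hi⟩ := IHj (by omega)
    have : (P ∪ Fx K Ω).card < (univ : Finset Ω).card := by
      rw [Finset.card_union_of_disjoint hd, Finset.card_univ]; omega
    obtain ⟨x, -, hx⟩ := Finset.exists_mem_notMem_of_card_lt_card this
    rw [Finset.mem_union, not_or] at hx
    have h3 : κ • x ∉ P := fun h' => hx.1 (h2 x ▸ hi _ h')
    have h4 : κ • x ≠ x := fun h' => hx.2 (hf x h')
    refine ⟨insert (κ • x) (insert x P), ?_, ?_, ?_⟩
    · rw [Finset.card_insert_of_notMem (by simp [h3, h4]), Finset.card_insert_of_notMem hx.1]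
      omega
    · rw [Finset.disjoint_insert_left, Finset.disjoint_insert_left]
      exact ⟨orbK_out hx.2 (smul_mem_Orb hκ (self_mem_Orb K x)), hx.2, hd⟩
    · intro y hy
      simp only [Finset.mem_insert] at hy ⊢
      rcases hy with rfl | rfl | hy
      · rw [h2]; simp
      · simp
      · exact Or.inr (Or.inr (hi y hy))

lemma steiner_ge4 {k : ℕ} (h : Tr G Ω k) (hk : 4 ≤ k) (hK : Pro K)
    (he : ∀ W : Finset Ω, W.card = k → (cl K W).card = k + 1)
    (hn : Fintype.card Ω = 2 * (Fx K Ω).card) {ρ : Ω} (hρ : ρ ∉ Fx K Ω) : False := by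
  have hg := h.orb_card hK hn.le hρ
  have hg' := orbK_le hρ
  obtain ⟨κ, hκ, h2, hf⟩ := exists_invol h (by omega) hK he hn hρ
  obtain ⟨P, hP, hd, hi⟩ := exists_inv_set κ hκ h2 hf ((k - 2) / 2) (by omega)
  have : (P ∪ Fx K Ω).card < (univ : Finset Ω).card := by
    rw [Finset.card_union_of_disjoint hd, Finset.card_univ]; omega
  obtain ⟨x, -, hx⟩ := Finset.exists_mem_notMem_of_card_lt_card this
  obtain ⟨A, hA, hAc⟩ := Finset.exists_subset_card_eq (s := Fx K Ω) (n := k - 2 - P.card)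
    (by omega)
  have hPA : Disjoint P A := hd.mono_right hA
  have hc : (P ∪ A).card + 2 = k := by rw [Finset.card_union_of_disjoint hPA]; omega
  have := h.star (by omega) he (P ∪ Fx K Ω) univ x hx (Finset.subset_univ _) (Finset.mem_univ _)
    (P ∪ A) (Fx K Ω \ A) (Finset.union_subset_union_right hA) hc
    (Finset.sdiff_subset.trans Finset.subset_union_right)
    (by
      rw [Finset.disjoint_union_right]
      exact ⟨(hd.symm.mono_left Finset.sdiff_subset), Finset.sdiff_disjoint⟩)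
    (by
      intro i hi' y hy hy' hm
      rw [Finset.mem_sdiff] at hi'
      have hyF : y ∈ Fx K Ω := by
        rcases Finset.mem_union.1 hy with h' | h'
        · exact absurd (by simp [h']) hy'
        · exact h'
      have hiPA : i ∉ P ∪ A := by
        rw [Finset.mem_union, not_or]
        exact ⟨fun h' => Finset.disjoint_left.1 hd h' hi'.1, hi'.2⟩
      have hsub : insert y (insert i (P ∪ A)) ⊆ P ∪ Fx K Ω :=
        Finset.insert_subset hy (Finset.insert_subset (by simp [hi'.1])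
          (Finset.union_subset_union_right hA))
      have := fixz he κ (W := insert y (insert i (P ∪ A))) (by
        rw [Finset.card_insert_of_notMem hy', Finset.card_insert_of_notMem hiPA]; omega) (by
        intro w hw
        rcases Finset.mem_union.1 (hsub hw) with h' | h'
        · simp [hi w h']
        · rwa [mem_Fx.1 h' κ hκ]) hm (fun h' => hx (hsub h'))
      exact hx (by simp [hf x this]))
    (fun _ _ => Finset.subset_univ _)
  rw [Finset.card_sdiff_of_subset hA, Finset.card_union_of_disjoint hd, Finset.card_univ] at this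
  omega

/-- blocks of the quadruple system -/
def Blk (K : Subgroup G) (a b c d : Ω) : Prop :=
  a ≠ b ∧ a ≠ c ∧ a ≠ d ∧ b ≠ c ∧ b ≠ d ∧ c ≠ d ∧ d ∈ cl K {a, b, c}

omit [Fintype Ω] in
lemma card3 {a b c : Ω} (h1 : a ≠ b) (h2 : a ≠ c) (h3 : b ≠ c) :
    ({a, b, c} : Finset Ω).card = 3 := Finset.card_eq_three.2 ⟨a, b, c, h1, h2, h3, rfl⟩

lemma Blk.swap1 {a b c d : Ω} (h : Blk K a b c d) : Blk K b a c d := by
  obtain ⟨h1, h2, h3, h4, h5, h6, h7⟩ := h
  exact ⟨h1.symm, h4, h5, h2, h3, h6, by rwa [Finset.insert_comm]⟩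

lemma Blk.swap2 {a b c d : Ω} (h : Blk K a b c d) : Blk K a c b d := by
  obtain ⟨h1, h2, h3, h4, h5, h6, h7⟩ := h
  exact ⟨h2, h1, h3, h4.symm, h6, h5, by rwa [Finset.pair_comm]⟩

lemma Blk.swap3 (ht : Tr G Ω 3) {a b c d : Ω} (h : Blk K a b c d) : Blk K a b d c := by
  obtain ⟨h1, h2, h3, h4, h5, h6, h7⟩ := h
  refine ⟨h1, h3, h2, h5, h4, h6.symm, ?_⟩
  rw [ht.cl_eq (card3 h1 h2 h4) (card3 h1 h3 h5) (by
    intro x hx
    simp only [Finset.mem_insert, Finset.mem_singleton] at hx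
    rcases hx with rfl | rfl | rfl
    · exact subset_cl _ (by simp)
    · exact subset_cl _ (by simp)
    · exact h7)]
  exact subset_cl _ (by simp)

lemma Blk.smul {a b c d : Ω} (h : Blk K a b c d) (g : G) :
    Blk K (g • a) (g • b) (g • c) (g • d) := by
  obtain ⟨h1, h2, h3, h4, h5, h6, h7⟩ := h
  refine ⟨by simpa, by simpa, by simpa, by simpa, by simpa, by simpa, ?_⟩
  refine (cl_smul (fun x => ?_) d).1 h7
  simp

lemma Blk.three {a b c d : Ω} (h : Blk K a b c d) (ha : a ∈ Fx K Ω) (hb : b ∈ Fx K Ω)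
    (hc : c ∈ Fx K Ω) : d ∈ Fx K Ω :=
  cl_subset (by
    intro x hx
    simp only [Finset.mem_insert, Finset.mem_singleton] at hx
    rcases hx with rfl | rfl | rfl <;> assumption) h.2.2.2.2.2.2

lemma Blk.one (ht : Tr G Ω 3) (he : ∀ W : Finset Ω, W.card = 3 → (cl K W).card = 3 + 1)
    (hn : Fintype.card Ω = 2 * (Fx K Ω).card) {a b c d : Ω} (h : Blk K a b c d)
    (ha : a ∈ Fx K Ω) (hb : b ∉ Fx K Ω) (hc : c ∉ Fx K Ω) : d ∈ Fx K Ω := by
  obtain ⟨h1, h2, h3, h4, h5, h6, h7⟩ := h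
  have hpos : 0 < (Fx K Ω).card := Finset.card_pos.2 ⟨a, ha⟩
  have : ∃ i ∈ Fx K Ω, i ≠ a ∧ c ∈ cl K {b, i, a} := by
    by_contra hno
    push Not at hno
    have := starF ht (by omega) he (univ.erase c) b hb (by
      intro y hy
      rw [Finset.mem_erase]
      exact ⟨fun h' => hc (h' ▸ hy), Finset.mem_univ _⟩) (by simp [h4]) {a} (by simpa) (by simp)
      (by
        intro i hi hia y hy
        rw [Finset.mem_erase]
        exact ⟨fun h' => hno i hi (by simpa using hia) (h' ▸ hy), Finset.mem_univ _⟩)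
    rw [Finset.card_erase_of_mem (Finset.mem_univ _), Finset.card_univ,
      Finset.card_singleton] at this
    omega
  obtain ⟨i, hi, hia, hm⟩ := this
  have hbi : b ≠ i := fun h' => hb (h' ▸ hi)
  have hci : c ≠ i := fun h' => hc (h' ▸ hi)
  have b1 : Blk K b i a c := ⟨hbi, h1.symm, h4, hia, hci.symm, h2, hm⟩
  have b2 : Blk K a b c i := (b1.swap2.swap1.swap3 ht)
  have hc1 : (cl K {a, b, c} \ {a, b, c}).card ≤ 1 := by
    rw [Finset.card_sdiff_of_subset (subset_cl _), he _ (card3 h1 h2 h4), card3 h1 h2 h4]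
  have := Finset.card_le_one.1 hc1 d (Finset.mem_sdiff.2 ⟨h7, by
    simp [h3.symm, h5.symm, h6.symm]⟩) i (Finset.mem_sdiff.2 ⟨b2.2.2.2.2.2.2, by
    simp [hia, hbi.symm, hci.symm]⟩)
  exact this ▸ hi

lemma prop1 (a b c d : Prop) (t1 : a → b → c → d) (t2 : a → b → d → c) (t3 : a → c → d → b)
    (t4 : b → c → d → a) (o1 : a → ¬b → ¬c → d) (o2 : b → ¬a → ¬c → d) (o3 : c → ¬a → ¬b → d)
    (o4 : d → ¬a → ¬b → c) : ((a ↔ b) ↔ (c ↔ d)) := by
  by_cases a <;> by_cases b <;> by_cases c <;> by_cases d <;> simp_all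

lemma prop2 (a b c d a' b' c' d' : Prop) (p1 : (a ↔ b) ↔ (c ↔ d)) (p2 : (a' ↔ b') ↔ (c' ↔ d'))
    (h1 : ¬ (a ↔ a')) (h2 : ¬ (b ↔ b')) (h3 : ¬ (c ↔ c')) (h4 : d ↔ d') : False := by
  by_cases a <;> by_cases b <;> by_cases c <;> by_cases d <;> simp_all

lemma Blk.parity (ht : Tr G Ω 3) (he : ∀ W : Finset Ω, W.card = 3 → (cl K W).card = 3 + 1)
    (hn : Fintype.card Ω = 2 * (Fx K Ω).card) {a b c d : Ω} (h : Blk K a b c d) :
    ((a ∈ Fx K Ω ↔ b ∈ Fx K Ω) ↔ (c ∈ Fx K Ω ↔ d ∈ Fx K Ω)) := by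
  have t1 := h.three
  have t2 := (h.swap3 ht).three
  have t3 := (h.swap2.swap3 ht).three
  have t4 := (h.swap1.swap2.swap3 ht).three
  have o1 := h.one ht he hn
  have o2 := h.swap1.one ht he hn
  have o3 := h.swap2.swap1.one ht he hn
  have o4 := (h.swap3 ht).swap2.swap1.one ht he hn
  exact prop1 _ _ _ _ t1 t2 t3 t4 o1 o2 o3 o4

omit [Fintype Ω] in
lemma count_smul [Fintype G] (htr : ∀ x y : Ω, ∃ g : G, g • x = y) (x : Ω) (T : Finset Ω) :
    (univ.filter fun g : G => g • x ∈ T).card =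
      T.card * (univ.filter fun g : G => g • x = x).card := by
  rw [Finset.card_eq_sum_card_fiberwise (f := fun g : G => g • x) (t := T) (by
    intro g hg; simpa using hg), ← smul_eq_mul, ← Finset.sum_const]
  refine Finset.sum_congr rfl fun y hy => ?_
  obtain ⟨a, rfl⟩ := htr x y
  apply Finset.card_bij (fun g _ => a⁻¹ * g)
  · intro g hg
    simp only [Finset.mem_filter, Finset.mem_univ, true_and] at hg ⊢
    rw [mul_smul, hg.2, inv_smul_smul]
  · intro g _ g' _ h; exact mul_left_cancel h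
  · intro g hg
    simp only [Finset.mem_filter, Finset.mem_univ, true_and] at hg
    refine ⟨a * g, ?_, by simp⟩
    simp only [Finset.mem_filter, Finset.mem_univ, true_and]
    rw [mul_smul, hg]
    exact ⟨hy, rfl⟩

lemma steiner_three [Finite G] (ht : Tr G Ω 3) (hK : Pro K)
    (he : ∀ W : Finset Ω, W.card = 3 → (cl K W).card = 3 + 1)
    (hn : Fintype.card Ω = 2 * (Fx K Ω).card) {ρ : Ω} (hρ : ρ ∉ Fx K Ω) : False := by
  have := Fintype.ofFinite G
  let Z : G → Finset Ω := fun g => univ.filter fun x => (x ∈ Fx K Ω ↔ g • x ∈ Fx K Ω)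
  have hZ : ∀ g x, x ∈ Z g ↔ (x ∈ Fx K Ω ↔ g • x ∈ Fx K Ω) := fun g x => by simp [Z]
  have hge : ∀ g, (Fx K Ω).card ≤ (Z g).card := by
    intro g
    have hc := Finset.card_compl (Z g)
    have hc' := Finset.card_le_univ (Z g)
    rcases (Z g)ᶜ.eq_empty_or_nonempty with h0 | ⟨b, hb⟩
    · rw [h0, Finset.card_empty] at hc; omega
    have : ∃ a, a ∈ Z g := by
      by_contra hno
      push Not at hno
      apply hK.not_in_block ρ hρ g
      intro y hy
      have h1 := hno y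
      rw [hZ] at h1
      by_contra h2
      exact h1 (iff_of_false (orbK_out hρ hy) h2)
    obtain ⟨a, ha⟩ := this
    have := ht.star (by omega) he (Z g)ᶜ univ a (by simpa using ha) (Finset.subset_univ _)
      (Finset.mem_univ _) {b} ((Z g)ᶜ.erase b) (by simpa using hb) (by simp)
      (Finset.erase_subset _ _) (by simp) (by
        intro i hi y hy hy' hm
        rw [Finset.mem_erase] at hi
        simp only [Finset.mem_insert, Finset.mem_singleton, not_or] at hy'
        have hi2 := hi.2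
        rw [Finset.mem_compl] at hy hb hi2
        have bl : Blk K y i b a := ⟨hy'.1, hy'.2, fun h' => hy (h' ▸ ha), hi.1,
          fun h' => hi2 (h' ▸ ha), fun h' => hb (h' ▸ ha), hm⟩
        have p1 := bl.parity ht he hn
        have p2 := (bl.smul g).parity ht he hn
        rw [hZ] at ha hb hy hi2
        exact prop2 _ _ _ _ _ _ _ _ p1 p2 hy hi2 hb ha) (fun _ _ => Finset.subset_univ _)
    rw [Finset.card_erase_of_mem hb, Finset.card_univ] at this
    have := Finset.card_pos.2 ⟨b, hb⟩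
    omega
  have htr : ∀ x y : Ω, ∃ g : G, g • x = y := fun x y => by
    obtain ⟨g, -, hg⟩ := ht ∅ (by simp) x (by simp) y (by simp)
    exact ⟨g, hg⟩
  have hcnt : ∀ x : Ω, 2 * (univ.filter fun g : G => x ∈ Z g).card = Fintype.card G := by
    intro x
    have h1 := count_smul htr x (Fx K Ω)
    have h2 := count_smul htr x (Fx K Ω)ᶜ
    have h3 := count_smul htr x univ
    rw [Finset.card_compl, hn, show 2 * (Fx K Ω).card - (Fx K Ω).card = (Fx K Ω).card by omega]
      at h2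
    simp only [Finset.mem_univ, Finset.filter_true, Finset.card_univ] at h3
    rw [h3, hn, mul_assoc]
    congr 1
    by_cases hx : x ∈ Fx K Ω
    · rw [← h1]; congr 1; ext g; simp [hZ, hx]
    · rw [← h2]; congr 1; ext g; simp [hZ, hx]
  have hs : ∑ g : G, (Z g).card = ∑ x : Ω, (univ.filter fun g : G => x ∈ Z g).card := by
    simp only [Finset.card_eq_sum_ones, Finset.sum_filter]
    rw [Finset.sum_comm]
    refine Finset.sum_congr rfl fun g _ => ?_
    simp [Finset.sum_ite_mem]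
  have hlt : ∑ _g : G, (Fx K Ω).card < ∑ g : G, (Z g).card := by
    refine Finset.sum_lt_sum (fun g _ => hge g) ⟨1, Finset.mem_univ _, ?_⟩
    have : Z 1 = univ := by ext x; simp [hZ]
    rw [this, Finset.card_univ]
    have := orbK_le hρ
    have := Finset.card_pos.2 ⟨ρ, self_mem_Orb K ρ⟩
    omega
  have h2 : 2 * ∑ g : G, (Z g).card = Fintype.card Ω * Fintype.card G := by
    rw [hs, Finset.mul_sum, Finset.sum_congr rfl fun x _ => hcnt x]
    simp
  rw [Finset.sum_const, Finset.card_univ, smul_eq_mul] at hlt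
  rw [hn] at h2
  nlinarith

lemma steiner [Finite G] {k e : ℕ} (h : Tr G Ω k) (hk : 3 ≤ k) (hK : Pro K) (he1 : 1 ≤ e)
    (he : ∀ W : Finset Ω, W.card = k → (cl K W).card = k + e)
    (hn : Fintype.card Ω = 2 * (Fx K Ω).card) {ρ : Ω} (hρ : ρ ∉ Fx K Ω) : False := by
  have hg := h.orb_card hK hn.le hρ
  have hg' := orbK_le hρ
  rcases Nat.eq_or_lt_of_le he1 with rfl | he2
  · rcases Nat.eq_or_lt_of_le hk with rfl | hk4
    · exact steiner_three h hK he hn hρ
    · exact steiner_ge4 h hk4 hK he hn hρ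
  obtain ⟨A, hA, hAc⟩ := Finset.exists_subset_card_eq (s := Fx K Ω) (n := k - 2) (by omega)
  have h1 := starF h (by omega) he univ ρ hρ (Finset.subset_univ _) (Finset.mem_univ _) A hA
    (by omega) (fun _ _ _ => Finset.subset_univ _)
  have h2 := h.simplex (by omega) he (Fx K Ω) ρ hρ (by omega) (fun W hW _ => cl_subset hW)
  rw [Finset.card_univ] at h1
  have h3 := Nat.mul_le_mul_right ((Fx K Ω).card - A.card) (show 2 ≤ e from he2)
  have h4 := Nat.mul_le_mul_right k (show 2 ≤ e from he2)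
  omega

end

end Cfsg.Agent.PronFix
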