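import Mathlib
import Cfsg.Agent.PronFix.Stein

set_option autoImplicit false

/-! The counting case. -/

namespace Cfsg.Agent.PronFix
open Finset Classical

universe u

lemma numeric (s t d g Q j f f1 w Pc : ℤ) (hs : 0 ≤ s) (ht : 0 ≤ t) (hj : j = 1 + s)
    (hf : f = 2 * j + 6 + t) (hf1 : f1 = f - j) (hw : w = 2 * f - j) (hP : Pc = f1 * (f1 - 1))
    (hd : 1 ≤ d) (hdw : 2 * d ≤ w) (hg : j + 3 ≤ g) (hQ : Pc * (d + 1) ≤ 2 * f * Q)
    (h : w ^ 2 * (g - 1) * d * (w - d) ≤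
      g * ((w * (w - 1) - Pc) * d ^ 2 + w * (w - 2 * d) * ((w - 1) * d - Q))) : False := by
  have hU0 : (j + 3) * (w + Pc) - w ^ 2 =
      3 + 31 * s + 11 * s * t + s * t ^ 2 + 11 * s ^ 2 + 2 * s ^ 2 * t + s ^ 3 := by
    subst hP hf1 hw hf hj; ring
  have hT1 : (j + 3) * (2 * f + Pc) + 2 * f - 2 * f * w =
      8 + 22 * s + 9 * s * t + s * t ^ 2 + 9 * s ^ 2 + 2 * s ^ 2 * t + s ^ 3 := by
    subst hP hf1 hw hf hj; ring
  have hT2 : (j + 3) * Pc - 2 * f * f = 40 + 20 * t + 2 * t ^ 2 + 30 * s + 13 * s * t +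
      s * t ^ 2 + 9 * s ^ 2 + 2 * s ^ 2 * t + s ^ 3 := by
    subst hP hf1 hw hf hj; ring
  have hf0 : 0 < f := by omega
  have hw0 : 0 < w := by omega
  have hP0 : 0 ≤ Pc := by rw [hP]; exact mul_nonneg (by omega) (by omega)
  have hg0 : 0 < g := by omega
  have hU : w ^ 2 < g * (w + Pc) := by
    have : 0 < (j + 3) * (w + Pc) - w ^ 2 := by rw [hU0]; positivity
    have := mul_le_mul_of_nonneg_right hg (show 0 ≤ w + Pc by omega)
    linarith
  have hT1' : 2 * f * w - 2 * f ≤ g * (2 * f + Pc) := by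
    have : 0 < (j + 3) * (2 * f + Pc) + 2 * f - 2 * f * w := by rw [hT1]; positivity
    have := mul_le_mul_of_nonneg_right hg (show 0 ≤ 2 * f + Pc by omega)
    linarith
  have hT2' : 2 * f * d ≤ g * Pc := by
    have : 0 < (j + 3) * Pc - 2 * f * f := by rw [hT2]; positivity
    have := mul_le_mul_of_nonneg_right hg hP0
    have := mul_le_mul_of_nonneg_left (show d ≤ f by omega) (show 0 ≤ 2 * f by omega)
    linarith
  have hT : 2 * f * w * d ≤ g * (2 * f * d + Pc * (d + 1)) := by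
    have := mul_le_mul_of_nonneg_right hT1' (show 0 ≤ d by omega)
    linarith
  have hu : 0 ≤ w * (w - 2 * d) := mul_nonneg hw0.le (by omega)
  have a1 := mul_le_mul_of_nonneg_left hT hu
  have a2 := mul_lt_mul_of_pos_left hU (show 0 < 2 * f * d ^ 2 by positivity)
  have a3 := mul_le_mul_of_nonneg_left hQ (mul_nonneg hg0.le hu)
  have a4 := mul_le_mul_of_nonneg_left h (show 0 ≤ 2 * f by omega)
  linarith

lemma const_of_sum {α : Type*} (X : Finset α) (N : α → ℤ) (c : ℤ)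
    (h : ∀ x ∈ X, ∀ y ∈ X, N x = N y) (hs : ∑ x ∈ X, N x = X.card * c) {x : α} (hx : x ∈ X) :
    N x = c := by
  rw [Finset.sum_congr rfl (fun y hy => h y hy x hx), Finset.sum_const, nsmul_eq_mul] at hs
  exact mul_left_cancel₀ (by exact_mod_cast (Finset.card_pos.2 ⟨x, hx⟩).ne') hs

lemma sum_offDiag' {α : Type*} (X : Finset α) (F : α → α → ℤ) (h : ∀ x ∈ X, F x x = 0) :
    ∑ p ∈ X.offDiag, F p.1 p.2 = ∑ x ∈ X, ∑ y ∈ X, F x y := by
  rw [← Finset.sum_product' X X F, ← Finset.diag_union_offDiag,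
    Finset.sum_union (Finset.disjoint_diag_offDiag X), Finset.sum_diag,
    Finset.sum_congr rfl h]
  simp

lemma card_offDiag' {α : Type*} (X : Finset α) :
    (X.offDiag.card : ℤ) = X.card * (X.card - 1) := by
  rw [Finset.offDiag_card, Nat.cast_sub (Nat.le_mul_self _)]
  push_cast; ring

lemma count_core {α β : Type*} (X : Finset α) (P P1 : Finset β) (hP1 : P1 ⊆ P)
    (ι : β → α → ℤ) (hι : ∀ p x, ι p x = 0 ∨ ι p x = 1) (d w : ℤ) (hw : (X.card : ℤ) = w)
    (hP : (P.card : ℤ) = w * (w - 1)) (hD : ∀ p ∈ P, ∑ x ∈ X, ι p x = d)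
    (hN : ∀ x ∈ X, ∀ y ∈ X, ∑ p ∈ P, ι p x = ∑ p ∈ P, ι p y)
    (hDd : ∀ q ∈ X.offDiag, ∀ q' ∈ X.offDiag,
      ∑ p ∈ P, ι p q.1 * (1 - ι p q.2) = ∑ p ∈ P, ι p q'.1 * (1 - ι p q'.2))
    (Γ : Finset α) (hΓ : Γ ⊆ X) (ρ : α) (hρ : ρ ∈ Γ)
    (h1 : ∀ p ∈ P1, ∀ x ∈ Γ, ι p x = ι p ρ) :
    w ^ 2 * (Γ.card - 1) * d * (w - d) ≤ Γ.card * ((w * (w - 1) - P1.card) * d ^ 2 +
      w * (w - 2 * d) * ((w - 1) * d - ∑ p ∈ P1, ι p ρ)) := by
  set g : ℤ := (Γ.card : ℤ) with hg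
  have hg0 : 0 < g := by rw [hg]; exact_mod_cast Finset.card_pos.2 ⟨ρ, hρ⟩
  have hdiag : ∀ p x, ι p x * (1 - ι p x) = 0 := fun p x => by
    rcases hι p x with h | h <;> simp [h]
  have hA : ∀ x ∈ X, ∑ p ∈ P, ι p x = (w - 1) * d := fun x hx =>
    const_of_sum X _ _ hN (by
      rw [Finset.sum_comm, Finset.sum_congr rfl hD, Finset.sum_const, nsmul_eq_mul, hP, hw]
      ring) hx
  have hsq : ∀ (Y : Finset α) (p : β), ∑ x ∈ Y, ∑ y ∈ Y, ι p x * (1 - ι p y) =
      (∑ x ∈ Y, ι p x) * (Y.card - ∑ x ∈ Y, ι p x) := fun Y p => by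
    rw [← Finset.sum_mul_sum, Finset.sum_sub_distrib]
    simp
  have hB : ∀ q ∈ X.offDiag, ∑ p ∈ P, ι p q.1 * (1 - ι p q.2) = d * (w - d) := fun q hq =>
    const_of_sum X.offDiag (fun q => ∑ p ∈ P, ι p q.1 * (1 - ι p q.2)) _ hDd (by
      rw [Finset.sum_comm, Finset.sum_congr rfl (fun p hp => by
        rw [sum_offDiag' X (fun x y => ι p x * (1 - ι p y)) (fun x _ => hdiag p x), hsq,
          hD p hp, hw]), Finset.sum_const, nsmul_eq_mul, hP, card_offDiag', hw]) hq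
  let n : β → ℤ := fun p => ∑ x ∈ Γ, ι p x
  have hC : ∑ p ∈ P, n p * (g - n p) = g * (g - 1) * (d * (w - d)) := by
    rw [← Finset.sum_congr rfl (fun p _ => hsq Γ p), ← Finset.sum_congr rfl (fun p _ =>
      sum_offDiag' Γ (fun x y => ι p x * (1 - ι p y)) (fun x _ => hdiag p x)), Finset.sum_comm,
      Finset.sum_congr rfl (fun q hq => hB q (Finset.offDiag_mono hΓ hq)), Finset.sum_const,
      nsmul_eq_mul, card_offDiag']
  have hn1 : ∀ p ∈ P1, n p = g * ι p ρ := fun p hp => by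
    simp only [n]
    rw [Finset.sum_congr rfl (h1 p hp), Finset.sum_const, nsmul_eq_mul]
  have hE : ∑ p ∈ P1, n p * (g - n p) = 0 := Finset.sum_eq_zero fun p hp => by
    rw [hn1 p hp]
    rcases hι p ρ with h | h <;> simp [h]
  have hF : ∑ p ∈ P, n p = g * ((w - 1) * d) := by
    simp only [n]
    rw [Finset.sum_comm, Finset.sum_congr rfl (fun x hx => hA x (hΓ hx)), Finset.sum_const,
      nsmul_eq_mul]
  have hG : ∑ p ∈ P1, n p = g * ∑ p ∈ P1, ι p ρ := by
    rw [Finset.sum_congr rfl hn1, Finset.mul_sum]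
  have s1 := Finset.sum_sdiff (f := fun p => n p * (g - n p)) hP1
  have s2 := Finset.sum_sdiff (f := n) hP1
  have s3 : ((P \ P1).card : ℤ) = w * (w - 1) - P1.card := by
    rw [Finset.card_sdiff_of_subset hP1, Nat.cast_sub (Finset.card_le_card hP1), hP]
  have s4 : ∑ p ∈ P \ P1, w ^ 2 * (n p * (g - n p)) ≤
      ∑ p ∈ P \ P1, (g ^ 2 * d ^ 2 + w * (w - 2 * d) * g * n p) :=
    Finset.sum_le_sum fun p _ => by nlinarith [sq_nonneg (w * n p - g * d)]
  rw [← Finset.mul_sum, Finset.sum_add_distrib, Finset.sum_const, nsmul_eq_mul, s3,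
    ← Finset.mul_sum] at s4
  rw [hE, hC, add_zero] at s1
  rw [hG, hF] at s2
  rw [s1, eq_sub_of_add_eq s2] at s4
  refine le_of_mul_le_mul_left ?_ hg0
  linarith

section
variable {G : Type u} [Group G] {K : Subgroup G} {Ω : Type u} [MulAction G Ω]

lemma Tr.two {k : ℕ} (h : Tr G Ω k) (A : Finset Ω) (hA : A.card + 2 ≤ k) {a b c d : Ω}
    (ha : a ∉ A) (hb : b ∉ A) (hc : c ∉ A) (hd : d ∉ A) (hab : a ≠ b) (hcd : c ≠ d) :
    ∃ g ∈ PS G A, g • a = c ∧ g • b = d := by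
  obtain ⟨g, hg, e⟩ := h A (by omega) a ha c hc
  obtain ⟨g', hg', e'⟩ := h (insert c A) (by rw [Finset.card_insert_of_notMem hc]; omega)
    (g • b) (by
      rw [Finset.mem_insert, not_or]
      refine ⟨fun h' => hab ((smul_left_cancel_iff g).1 (e.trans h'.symm)), fun h' => hb ?_⟩
      have := hg _ h'
      rw [smul_left_cancel_iff] at this
      rwa [this] at h') d (by simp [hd, hcd.symm])
  refine ⟨g' * g, (PS G A).mul_mem (fun w hw => hg' w (by simp [hw])) hg, ?_, ?_⟩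
  · rw [mul_smul, e, hg' c (by simp)]
  · rw [mul_smul, e']

lemma PS_notMem {A : Finset Ω} {g : G} (hg : g ∈ PS G A) {x : Ω} : g • x ∈ A ↔ x ∈ A := by
  constructor
  · intro h'
    have := hg _ h'
    rw [smul_left_cancel_iff] at this
    rwa [this] at h'
  · intro h'; rwa [hg x h']

variable [Fintype Ω] [Finite G]

lemma count_case {k : ℕ} (ih : IH.{u} (Fintype.card Ω)) (h : Tr G Ω k) (hnot : ¬ Tr G Ω (k + 1))
    (hk : 3 ≤ k) (hK : Pro K) (he : ∀ W : Finset Ω, W.card = k → cl K W = W)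
    (hn : Fintype.card Ω = 2 * (Fx K Ω).card) {ρ : Ω} (hρ : ρ ∉ Fx K Ω) : False := by
  have hg := h.orb_card hK hn.le hρ
  have hg' := orbK_le hρ
  set F := Fx K Ω with hF
  obtain ⟨A, hA, hAc⟩ := Finset.exists_subset_card_eq (s := F) (n := k - 2) (by omega)
  have hF1 : (F \ A).card = F.card - (k - 2) := by rw [Finset.card_sdiff_of_subset hA, hAc]
  obtain ⟨a0, ha0, b0, hb0, hab0⟩ := Finset.one_lt_card.1 (show 1 < (F \ A).card by omega)
  rw [Finset.mem_sdiff] at ha0 hb0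
  have hWc : ∀ a b, a ∉ A → b ∉ A → a ≠ b → (insert a (insert b A)).card = k := by
    intro a b ha hb hab
    rw [Finset.card_insert_of_notMem (by simp [ha, hab]), Finset.card_insert_of_notMem hb]
    omega
  have hWF : ∀ a b, a ∈ F → b ∈ F → insert a (insert b A) ⊆ F := fun a b ha hb =>
    Finset.insert_subset ha (Finset.insert_subset hb hA)
  have horb : ∀ (W : Finset Ω) x, x ∉ W → Orb (PS G W) x ⊆ Wᶜ := by
    intro W x hx y hy
    obtain ⟨g, hg, rfl⟩ := mem_Orb.1 hy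
    rw [Finset.mem_compl, PS_notMem hg]
    exact hx
  set W0 := insert a0 (insert b0 A)
  have hW0 : W0.card = k := hWc a0 b0 ha0.2 hb0.2 hab0
  have hW0F : W0 ⊆ F := hWF a0 b0 ha0.1 hb0.1
  have hbig : ∀ x, x ∉ W0 → k + 1 ≤ (Orb (PS G W0) x \ F).card := by
    intro x hx
    obtain ⟨z, hz, hzF⟩ := hK.orb_out hW0F (x := x) (by rwa [he W0 hW0])
    refine (h.orb_card hK hn.le hzF).trans (Finset.card_le_card fun y hy => ?_)
    rw [Finset.mem_sdiff]
    refine ⟨?_, orbK_out hzF hy⟩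
    obtain ⟨c, hc, rfl⟩ := mem_Orb.1 hy
    exact smul_mem_Orb (le_PS hW0F hc) hz
  obtain ⟨x0, hx0, hsmall, hf⟩ : ∃ x0, x0 ∉ W0 ∧
      2 * (Orb (PS G W0) x0).card + k ≤ Fintype.card Ω ∧ 2 * (k + 1) ≤ F.card := by
    have : ∃ x, x ∉ W0 ∧ ∃ y, y ∉ W0 ∧ y ∉ Orb (PS G W0) x := by
      by_contra hno
      push Not at hno
      exact hnot (h.succ W0 hW0 fun x hx y hy => mem_Orb.1 (hno x hx y hy))
    obtain ⟨x, hx, y, hy, hxy⟩ := this
    have hd := Orb_disjoint hxy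
    have c1 := Finset.card_le_card (Finset.union_subset (horb W0 x hx) (horb W0 y hy))
    rw [Finset.card_union_of_disjoint hd, Finset.card_compl] at c1
    have c2 : (Orb (PS G W0) x \ F ∪ Orb (PS G W0) y \ F).card ≤ Fᶜ.card :=
      Finset.card_le_card fun z hz => by
        rw [Finset.mem_union, Finset.mem_sdiff, Finset.mem_sdiff] at hz
        rw [Finset.mem_compl]; tauto
    rw [Finset.card_union_of_disjoint (hd.mono Finset.sdiff_subset Finset.sdiff_subset),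
      Finset.card_compl] at c2
    have := hbig x hx
    have := hbig y hy
    by_cases hle : (Orb (PS G W0) x).card ≤ (Orb (PS G W0) y).card
    · exact ⟨x, hx, by omega, by omega⟩
    · exact ⟨y, hy, by omega, by omega⟩
  set d := (Orb (PS G W0) x0).card with hd
  let D : Ω × Ω → Finset Ω := fun p =>
    univ.filter fun x => ∃ g ∈ PS G A, g • a0 = p.1 ∧ g • b0 = p.2 ∧ g • x0 = x
  have hD : ∀ p x, x ∈ D p ↔ ∃ g ∈ PS G A, g • a0 = p.1 ∧ g • b0 = p.2 ∧ g • x0 = x :=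
    fun p x => by simp [D]
  have hDs : ∀ g ∈ PS G A, ∀ (p : Ω × Ω) x, x ∈ D p ↔ g • x ∈ D (g • p.1, g • p.2) := by
    intro g hg p x
    rw [hD, hD]
    constructor
    · rintro ⟨c, hc, e1, e2, e3⟩
      exact ⟨g * c, (PS G A).mul_mem hg hc, by rw [mul_smul, e1], by rw [mul_smul, e2],
        by rw [mul_smul, e3]⟩
    · rintro ⟨c, hc, e1, e2, e3⟩
      exact ⟨g⁻¹ * c, (PS G A).mul_mem ((PS G A).inv_mem hg) hc, by rw [mul_smul, e1]; simp,
        by rw [mul_smul, e2]; simp, by rw [mul_smul, e3]; simp⟩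
  have hDO : ∀ g ∈ PS G A, D (g • a0, g • b0) =
      Orb (PS G (insert (g • a0) (insert (g • b0) A))) (g • x0) := by
    intro g hg
    ext x
    rw [hD, mem_Orb]
    constructor
    · rintro ⟨c, hc, e1, e2, e3⟩
      refine ⟨c * g⁻¹, fun w hw => ?_, by rw [mul_smul, inv_smul_smul, e3]⟩
      simp only [Finset.mem_insert] at hw
      rcases hw with rfl | rfl | hw
      · rw [mul_smul, inv_smul_smul, e1]
      · rw [mul_smul, inv_smul_smul, e2]
      · exact (PS G A).mul_mem hc ((PS G A).inv_mem hg) w hw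
    · rintro ⟨c, hc, e⟩
      exact ⟨c * g, (PS G A).mul_mem (fun w hw => hc w (by simp [hw])) hg,
        by rw [mul_smul, hc _ (by simp)], by rw [mul_smul, hc _ (by simp)], by rw [mul_smul, e]⟩
  have hD0 : (D (a0, b0)).card = d := by
    have := hDO 1 (PS G A).one_mem
    simp only [one_smul] at this
    rw [this]
  have hpair : ∀ p ∈ Aᶜ.offDiag, ∃ g ∈ PS G A, p = (g • a0, g • b0) := by
    intro p hp
    rw [Finset.mem_offDiag, Finset.mem_compl, Finset.mem_compl] at hp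
    obtain ⟨g, hg, e1, e2⟩ := h.two A (by omega) ha0.2 hb0.2 hp.1 hp.2.1 hab0 hp.2.2
    exact ⟨g, hg, by rw [e1, e2]⟩
  have hDc : ∀ p ∈ Aᶜ.offDiag, (D p).card = d := by
    intro p hp
    obtain ⟨g, hg, rfl⟩ := hpair p hp
    rw [← hD0]
    exact (card_eq_of_iff (hDs g hg (a0, b0))).symm
  have hDA : ∀ p, D p ⊆ Aᶜ := by
    intro p x hx
    obtain ⟨g, hg, -, -, rfl⟩ := (hD p x).1 hx
    rw [Finset.mem_compl, PS_notMem hg]
    exact fun h' => hx0 (by simp [W0, h'])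
  have hP1 : (F \ A).offDiag ⊆ Aᶜ.offDiag := Finset.offDiag_mono fun x hx => by
    rw [Finset.mem_compl]; exact (Finset.mem_sdiff.1 hx).2
  have hDF : ∀ p ∈ (F \ A).offDiag, 2 * (D p ∩ F).card + 1 ≤ d := by
    intro p hp
    have hc := hDc p (hP1 hp)
    obtain ⟨g, hg, rfl⟩ := hpair p (hP1 hp)
    rw [Finset.mem_offDiag, Finset.mem_sdiff, Finset.mem_sdiff] at hp
    rw [hDO g hg] at hc ⊢
    dsimp only at hp
    have hsub := hWF _ _ hp.1.1 hp.2.1.1
    rw [← hc]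
    refine (ih.orb hK _ (le_PS hsub) (g • x0) (by omega) (hK.orb_out hsub ?_)).1
    rw [he _ (hWc _ _ hp.1.2 hp.2.1.2 hp.2.2)]
    simp only [Finset.mem_insert, smul_left_cancel_iff, PS_notMem hg]
    simpa [W0] using hx0
  let ι : Ω × Ω → Ω → ℤ := fun p x => if x ∈ D p then 1 else 0
  have hsumι : ∀ p (Y : Finset Ω), ∑ x ∈ Y, ι p x = (Y ∩ D p).card := fun p Y => by
    simp only [ι]
    rw [Finset.sum_boole, Finset.filter_mem_eq_inter]
  have hιs : ∀ g ∈ PS G A, ∀ (p : Ω × Ω) x, ι (g • p.1, g • p.2) (g • x) = ι p x := by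
    intro g hg p x
    simp only [ι, ← hDs g hg p x]
  have hre : ∀ g ∈ PS G A, ∀ φ : Ω × Ω → ℤ,
      ∑ p ∈ Aᶜ.offDiag, φ (g • p.1, g • p.2) = ∑ p ∈ Aᶜ.offDiag, φ p := by
    intro g hg φ
    refine Finset.sum_bij (fun p _ => (g • p.1, g • p.2)) ?_ ?_ ?_ (fun _ _ => rfl)
    · intro p hp
      simpa [Finset.mem_offDiag, PS_notMem hg] using hp
    · intro p _ q _ e
      simp only [Prod.mk.injEq, smul_left_cancel_iff] at e
      exact Prod.ext e.1 e.2
    · intro p hp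
      refine ⟨(g⁻¹ • p.1, g⁻¹ • p.2), ?_, by simp⟩
      simpa [Finset.mem_offDiag, PS_notMem ((PS G A).inv_mem hg)] using hp
  have hS : Fᶜ.card = F.card := by rw [Finset.card_compl]; omega
  obtain ⟨σ, hσ, hQ⟩ := Finset.exists_le_of_sum_le (s := Fᶜ) ⟨ρ, by simpa using hρ⟩
    (f := fun _ => ((F \ A).offDiag.card : ℤ) * (d + 1))
    (g := fun σ => 2 * (F.card : ℤ) * ∑ p ∈ (F \ A).offDiag, ι p σ) (by
      rw [Finset.sum_const, nsmul_eq_mul, hS, ← Finset.mul_sum, Finset.sum_comm]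
      have : ∑ _p ∈ (F \ A).offDiag, ((d : ℤ) + 1) ≤
          ∑ p ∈ (F \ A).offDiag, 2 * ∑ x ∈ Fᶜ, ι p x := Finset.sum_le_sum fun p hp => by
        rw [hsumι]
        have h1 := hDF p hp
        have h2 := hDc p (hP1 hp)
        have h3 := Finset.card_sdiff_add_card_inter (D p) F
        have h4 : Fᶜ ∩ D p = D p \ F := by ext x; simp [and_comm]
        rw [h4]
        omega
      rw [Finset.sum_const, nsmul_eq_mul, ← Finset.mul_sum] at this
      have := mul_le_mul_of_nonneg_left this (Nat.cast_nonneg (α := ℤ) F.card)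
      linarith)
  rw [Finset.mem_compl] at hσ
  have hw : ((Aᶜ).card : ℤ) = 2 * F.card - (k - 2 : ℤ) := by
    rw [Finset.card_compl]; omega
  have key := count_core Aᶜ Aᶜ.offDiag (F \ A).offDiag hP1 ι (fun p x => by
      simp only [ι]; split_ifs <;> simp) d _ hw (by rw [card_offDiag', hw])
    (fun p hp => by rw [hsumι, Finset.inter_eq_right.2 (hDA p), hDc p hp])
    (fun x hx y hy => by
      rw [Finset.mem_compl] at hx hy
      obtain ⟨g, hg, rfl⟩ := h A (by omega) x hx y hy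
      rw [← hre g hg (fun p => ι p (g • x))]
      exact Finset.sum_congr rfl fun p _ => (hιs g hg p x).symm)
    (fun q hq q' hq' => by
      rw [Finset.mem_offDiag, Finset.mem_compl, Finset.mem_compl] at hq hq'
      obtain ⟨g, hg, e1, e2⟩ := h.two A (by omega) hq.1 hq.2.1 hq'.1 hq'.2.1 hq.2.2 hq'.2.2
      rw [← e1, ← e2, ← hre g hg (fun p => ι p (g • q.1) * (1 - ι p (g • q.2)))]
      exact Finset.sum_congr rfl fun p _ => by rw [hιs g hg, hιs g hg])
    (Orb K σ) (fun y hy => Finset.mem_compl.2 fun h' => orbK_out hσ hy (hA h')) σ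
    (self_mem_Orb K σ) (fun p hp x hx => by
      obtain ⟨c, hc, rfl⟩ := mem_Orb.1 hx
      rw [Finset.mem_offDiag, Finset.mem_sdiff, Finset.mem_sdiff] at hp
      rw [← hιs c (le_PS hA hc) p σ, mem_Fx.1 hp.1.1 c hc, mem_Fx.1 hp.2.1.1 c hc])
  have hgσ := h.orb_card hK hn.le hσ
  have hd1 : 0 < d := Finset.card_pos.2 ⟨x0, self_mem_Orb _ _⟩
  exact numeric (k - 3) (F.card - 2 * (k + 1)) d _ _ (k - 2) F.card ((F \ A).card) _ _
    (by omega) (by omega) (by omega) (by omega) (by omega) rfl (card_offDiag' _) (by omega)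
    (by omega) (by omega) hQ key

end

end Cfsg.Agent.PronFix
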