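import Mathlib
import Cfsg.Agent.PronFix.Count

set_option autoImplicit false

/-! A nontrivially acting pronormal subgroup of a transitive group fixes less than half of the
points. -/

namespace Cfsg.Agent.PronFix
open Finset Classical

universe u

section
variable {G : Type u} [Group G] {K : Subgroup G} {Ω : Type u} [Fintype Ω] [MulAction G Ω]
  [Finite G]

lemma main3 (ih : IH.{u} (Fintype.card Ω)) (h3 : Tr G Ω 3) (hK : Pro K)
    (hn : Fintype.card Ω = 2 * (Fx K Ω).card) {ρ : Ω} (hρ : ρ ∉ Fx K Ω) : False := by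
  have hex : ∃ k, ¬ Tr G Ω (k + 1) := ⟨Fintype.card Ω, fun h => by
    have := h.orb_card hK hn.le hρ
    have := Finset.card_le_univ (Orb K ρ)
    omega⟩
  have hnot := Nat.find_spec hex
  have hk3 : 3 ≤ Nat.find hex := by
    by_contra hlt
    exact hnot (h3.mono (by omega))
  have hk : Tr G Ω (Nat.find hex) := by
    have := Nat.find_min hex (m := Nat.find hex - 1) (by omega)
    rw [not_not, Nat.sub_add_cancel (by omega)] at this
    exact this
  set k := Nat.find hex
  have h1 := hk.orb_card hK hn.le hρ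
  obtain ⟨W0, -, hW0⟩ := Finset.exists_subset_card_eq (s := Orb K ρ) (n := k) (by omega)
  have h2 := Finset.card_le_card (subset_cl (K := K) W0)
  have he : ∀ W : Finset Ω, W.card = k → (cl K W).card = k + ((cl K W0).card - k) := by
    intro W hW
    rw [hk.card_cl hW hW0]; omega
  rcases Nat.eq_zero_or_pos ((cl K W0).card - k) with h0 | hpos
  · refine count_case ih hk hnot hk3 hK (fun W hW => ?_) hn hρ
    exact (Finset.eq_of_subset_of_card_le (subset_cl W) (by rw [he W hW, h0]; omega)).symm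
  · exact steiner hk hk3 hK hpos he hn hρ

lemma block_case (ih : IH.{u} (Fintype.card Ω)) (h1 : Tr G Ω 1) (hK : Pro K) {α ρ : Ω}
    (hα : α ∈ Fx K Ω) (hρ : ρ ∉ Fx K Ω) (hb : 2 ≤ (cl K {α}).card) :
    2 * (Fx K Ω).card + 2 ≤ Fintype.card Ω := by
  have htr : ∀ x y : Ω, ∃ g : G, g • x = y := fun x y => by
    obtain ⟨g, -, hg⟩ := h1 ∅ (by simp) x (by simp) y (by simp)
    exact ⟨g, hg⟩
  have hiff : ∀ x y : Ω, cl K {x} = cl K {y} ↔ x ∈ cl K {y} := fun x y =>
    ⟨fun h => h ▸ subset_cl _ (by simp), fun h => h1.cl_eq (by simp) (by simp) (by simpa using h)⟩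
  let s : Setoid Ω := Setoid.ker fun x => cl K {x}
  let Q := Quotient s
  let : Fintype Q := Fintype.ofFinite _
  let : MulAction G Q :=
    { smul := fun g => Quotient.map (g • ·) (by
        intro x y hxy
        have hxy' : cl K {x} = cl K {y} := hxy
        change cl K {g • x} = cl K {g • y}
        rw [hiff] at hxy' ⊢
        exact (cl_smul (W := {y}) (fun z => by simp) x).1 hxy')
      one_smul := by
        rintro ⟨x⟩
        exact congrArg (Quotient.mk s) (one_smul G x)
      mul_smul := by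
        rintro a b ⟨x⟩
        exact congrArg (Quotient.mk s) (mul_smul a b x) }
  let π : Ω → Q := Quotient.mk s
  have hπ : ∀ (g : G) x, g • π x = π (g • x) := fun _ _ => rfl
  have hπe : ∀ x y, π x = π y ↔ x ∈ cl K {y} := fun x y => by
    rw [← hiff]; exact Quotient.eq
  have hfib : ∀ q : Q, (univ.filter fun x => π x = q).card = (cl K {α}).card := by
    rintro ⟨y⟩
    rw [← h1.card_cl (K := K) (W := {y}) (V := {α}) (by simp) (by simp)]
    congr 1
    ext x
    simp only [Finset.mem_filter, Finset.mem_univ, true_and]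
    exact hπe x y
  have hn : Fintype.card Ω = Fintype.card Q * (cl K {α}).card := by
    rw [← Finset.card_univ, Finset.card_eq_sum_card_fiberwise (f := π) (t := univ)
      (fun _ _ => by simp), Finset.sum_congr rfl fun q _ => hfib q]
    simp
  have hf : (Fx K Ω).card ≤ (Fx K Q).card * (cl K {α}).card := by
    rw [Finset.card_eq_sum_card_fiberwise (f := π) (t := Fx K Q) (fun x hx => by
      have hx' : x ∈ Fx K Ω := hx
      exact Finset.mem_coe.2 (mem_Fx.2 fun k hk => by rw [hπ, mem_Fx.1 hx' k hk])),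
      ← smul_eq_mul, ← Finset.sum_const]
    refine Finset.sum_le_sum fun q _ => ?_
    rw [← hfib q]
    exact Finset.card_le_card (Finset.filter_subset_filter _ (Finset.subset_univ _))
  have hQ : 0 < Fintype.card Q := Fintype.card_pos_iff.2 ⟨π α⟩
  by_cases hnt : ∃ k ∈ K, ∃ q : Q, k • q ≠ q
  · have := (ih G Q (by nlinarith) (by
      rintro ⟨x⟩ ⟨y⟩
      obtain ⟨g, rfl⟩ := htr x y
      exact ⟨g, rfl⟩) K hK hnt).1
    nlinarith
  · exfalso
    push Not at hnt
    obtain ⟨g, hg⟩ := htr ρ α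
    obtain ⟨h, hh, e⟩ := hK.act (Ω := Ω) g (PS G (univ : Finset Q)) (fun k hk q _ => hnt k hk q)
      (fun k hk q _ => by rw [mul_smul, mul_smul, hnt k hk, inv_smul_smul])
    have h2 := (e ρ).1 (hg ▸ hα)
    have h3 := hh (π ρ) (Finset.mem_univ _)
    rw [hπ] at h3
    exact hρ (cl_subset (by simpa using h2) ((hπe _ _).1 h3.symm))

omit [Finite G] in
lemma handshake (htr : ∀ x y : Ω, ∃ g : G, g • x = y) (α : Ω) (hodd : Odd (Fintype.card Ω))
    (horb : ∀ y, y ≠ α → Odd (Orb (PS G {α}) y).card) {x y : Ω} (hxy : x ≠ y) {h : G}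
    (h1 : h • x = y) (h2 : h • y = x) : False := by
  let Γ : SimpleGraph Ω :=
    { Adj := fun a b => ∃ g : G, g • x = a ∧ g • y = b
      symm := ⟨by
        rintro a b ⟨g, rfl, rfl⟩
        exact ⟨g * h, by rw [mul_smul, h1], by rw [mul_smul, h2]⟩⟩
      loopless := ⟨by
        rintro a ⟨g, e1, e2⟩
        exact hxy ((smul_left_cancel_iff g).1 (e1.trans e2.symm))⟩ }
  have hdeg : ∀ a, Odd (Γ.degree a) := by
    intro a
    obtain ⟨c, hc⟩ := htr a α
    obtain ⟨g, hg⟩ := htr x α
    have : Γ.degree a = (Orb (PS G {α}) (g • y)).card := by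
      rw [← SimpleGraph.card_neighborFinset_eq_degree]
      refine card_eq_of_iff (g := c) fun z => ?_
      rw [SimpleGraph.mem_neighborFinset, mem_Orb]
      constructor
      · rintro ⟨t, e1, e2⟩
        refine ⟨c * t * g⁻¹, fun w hw => ?_, by simp [mul_smul, e2]⟩
        rw [Finset.mem_singleton.1 hw, mul_smul, mul_smul, ← hg, inv_smul_smul, e1, hc, hg]
      · rintro ⟨t, ht, e⟩
        refine ⟨c⁻¹ * t * g, ?_, by rw [mul_smul, mul_smul, e, inv_smul_smul]⟩
        rw [mul_smul, mul_smul, hg, ht α (by simp), ← hc, inv_smul_smul]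
    rw [this]
    exact horb _ fun e => hxy ((smul_left_cancel_iff g).1 (hg.trans e.symm))
  have := Γ.even_card_odd_degree_vertices
  simp only [hdeg, Finset.filter_true, Finset.card_univ] at this
  exact (Nat.not_even_iff_odd.2 hodd) this

lemma step (ih : IH.{u} (Fintype.card Ω)) (htr : ∀ x y : Ω, ∃ g : G, g • x = y) (hK : Pro K)
    (hnt : ∃ k ∈ K, ∃ x : Ω, k • x ≠ x) : Concl K Ω := by
  obtain ⟨κ, hκ, ρ, hκρ⟩ := hnt
  have hρ : ρ ∉ Fx K Ω := fun h => hκρ (mem_Fx.1 h κ hκ)
  have h1 : Tr G Ω 1 := by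
    intro W hW x _ y _
    obtain ⟨g, hg⟩ := htr x y
    rw [Nat.lt_one_iff, Finset.card_eq_zero] at hW
    exact ⟨g, by simp [hW, mem_PS], hg⟩
  have hn2 : 2 ≤ Fintype.card Ω := Fintype.one_lt_card_iff.2 ⟨_, _, hκρ⟩
  rcases (Fx K Ω).eq_empty_or_nonempty with h0 | ⟨α, hα⟩
  · rw [Concl, h0, Finset.card_empty]
    exact ⟨by omega, fun h => by omega⟩
  by_cases hb : 2 ≤ (cl K {α}).card
  · have := block_case ih h1 hK hα hρ hb
    exact ⟨by omega, fun h => by omega⟩
  have hcl : cl K {α} = {α} :=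
    (Finset.eq_of_subset_of_card_le (subset_cl _) (by rw [Finset.card_singleton]; omega)).symm
  have hαF : ({α} : Finset Ω) ⊆ Fx K Ω := by simpa using hα
  have hKH := le_PS (K := K) hαF
  set H := PS G ({α} : Finset Ω)
  have hout : ∀ y, y ≠ α → ∃ z ∈ Orb H y, z ∉ Fx K Ω := fun y hy =>
    hK.orb_out hαF (by rw [hcl]; simpa using hy)
  have hαO : ∀ y, y ≠ α → α ∉ Orb H y := by
    intro y hy h
    obtain ⟨g, hg, e⟩ := mem_Orb.1 h
    exact hy ((smul_left_cancel_iff g).1 (e.trans (hg α (by simp)).symm))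
  have hlt : ∀ y, y ≠ α → (Orb H y).card < Fintype.card Ω := fun y hy =>
    Finset.card_lt_card (Finset.ssubset_univ_iff.2 fun h => hαO y hy (h ▸ Finset.mem_univ _))
  have horb := fun y (hy : y ≠ α) => ih.orb hK H hKH y (hlt y hy) (hout y hy)
  have hρα : ρ ≠ α := fun h => hρ (h ▸ hα)
  by_cases hall : ∀ y, y ≠ α → y ∈ Orb H ρ
  · have h2 : Tr G Ω 2 := h1.succ {α} (by simp) fun x hx y hy => by
      have := hall y (by simpa using hy)
      rw [← Orb_eq (hall x (by simpa using hx))] at this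
      exact mem_Orb.1 this
    have hO : Orb H ρ = univ.erase α := by
      ext y
      rw [Finset.mem_erase]
      exact ⟨fun hy => ⟨fun h => hαO ρ hρα (h ▸ hy), Finset.mem_univ _⟩, fun hy => hall y hy.1⟩
    have c1 : (Orb H ρ).card + 1 = Fintype.card Ω := by
      rw [hO, Finset.card_erase_of_mem (Finset.mem_univ _), Finset.card_univ]; omega
    have c2 : (Orb H ρ ∩ Fx K Ω).card + 1 = (Fx K Ω).card := by
      rw [hO, Finset.erase_inter, Finset.univ_inter, Finset.card_erase_add_one hα]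
    obtain ⟨o1, o2⟩ := horb ρ hρα
    refine ⟨?_, fun _ a b c d hab hcd => ?_⟩
    · by_contra hlt
      refine main3 ih (h2.succ {α, ρ} (Finset.card_pair hρα.symm) fun x hx y hy => ?_) hK
        (by omega) hρ
      simp only [Finset.mem_insert, Finset.mem_singleton, not_or] at hx hy
      obtain ⟨g, hg, e1, e2⟩ := o2 (by omega) ρ (self_mem_Orb _ _) x (hall x hx.1) ρ
        (self_mem_Orb _ _) y (hall y hy.1) (Ne.symm hx.2) (Ne.symm hy.2)
      refine ⟨g, fun w hw => ?_, e2⟩
      simp only [Finset.mem_insert, Finset.mem_singleton] at hw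
      rcases hw with rfl | rfl
      · exact hg _ (by simp)
      · exact e1
    · obtain ⟨g, -, hg⟩ := h2.two ∅ (by simp) (a := a) (b := b) (c := c) (d := d) (by simp)
        (by simp) (by simp) (by simp) hab hcd
      exact ⟨g, hg⟩
  push Not at hall
  obtain ⟨γ, hγα, hγ⟩ := hall
  have hd := Orb_disjoint hγ
  set U := insert α (Orb H ρ ∪ Orb H γ) with hU
  have cU : U.card = (Orb H ρ).card + (Orb H γ).card + 1 := by
    rw [hU, Finset.card_insert_of_notMem (by simp [hαO ρ hρα, hαO γ hγα]),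
      Finset.card_union_of_disjoint hd]
  have cR := Finset.card_compl U
  have cU' := Finset.card_le_univ U
  have cF : (Fx K Ω).card ≤ 1 + ((Orb H ρ ∩ Fx K Ω).card + ((Orb H γ ∩ Fx K Ω).card +
      (Uᶜ ∩ Fx K Ω).card)) := by
    have : Fx K Ω ⊆ {α} ∪ (Orb H ρ ∩ Fx K Ω ∪ (Orb H γ ∩ Fx K Ω ∪ Uᶜ ∩ Fx K Ω)) := by
      intro y hy
      by_cases e1 : y = α
      · simp [e1]
      by_cases e2 : y ∈ Orb H ρ
      · simp [e2, hy]
      by_cases e3 : y ∈ Orb H γ
      · simp [e3, hy]
      simp [hU, e1, e2, e3, hy]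
    refine (Finset.card_le_card this).trans ((Finset.card_union_le _ _).trans ?_)
    rw [Finset.card_singleton]
    refine Nat.add_le_add_left ((Finset.card_union_le _ _).trans ?_) _
    exact Nat.add_le_add_left (Finset.card_union_le _ _) _
  obtain ⟨r1, r2⟩ := ih.inv hK H hKH _ Uᶜ rfl (by omega) (by
    intro g hg y hy
    simp only [hU, Finset.mem_compl, Finset.mem_insert, Finset.mem_union, smul_mem_Orb_iff hg,
      not_or] at hy ⊢
    refine ⟨fun e => hy.1 ((smul_left_cancel_iff g).1 (e.trans (hg α (by simp)).symm)), hy.2⟩)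
    (fun y hy => hout y fun e => by simp [hU, e] at hy)
  obtain ⟨o1, o2⟩ := horb ρ hρα
  obtain ⟨o3, -⟩ := horb γ hγα
  refine ⟨by omega, fun he => ?_⟩
  exfalso
  have hR : Uᶜ = ∅ := by
    by_contra hne
    have := r2 (Finset.nonempty_iff_ne_empty.2 hne)
    omega
  have hκO : κ • ρ ∈ Orb H ρ := smul_mem_Orb (hKH hκ) (self_mem_Orb _ _)
  obtain ⟨g, -, e1, e2⟩ := o2 (by omega) ρ (self_mem_Orb _ _) _ hκO _ hκO ρ (self_mem_Orb _ _)
    hκρ.symm hκρ
  refine handshake htr α ⟨_, he.symm⟩ (fun y hy => ?_) hκρ.symm e1 e2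
  have : y ∈ U := by
    by_contra hy'
    have : y ∈ Uᶜ := Finset.mem_compl.2 hy'
    simp [hR] at this
  simp only [hU, Finset.mem_insert, Finset.mem_union] at this
  rcases this with h | h | h
  · exact absurd h hy
  · rw [Orb_eq h]; exact ⟨(Orb H ρ ∩ Fx K Ω).card, by omega⟩
  · rw [Orb_eq h]; exact ⟨(Orb H γ ∩ Fx K Ω).card, by omega⟩

end

theorem ih_all (n : ℕ) : IH.{u} n := by
  induction n using Nat.strong_induction_on with
  | _ n IHn =>
    intro G Ω _ _ _ _ hlt htr K hK hnt
    exact step (IHn _ hlt) htr hK hnt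

end Cfsg.Agent.PronFix
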